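import Mathlib
import Cfsg.Agent.J4T.TopS
import Cfsg.Agent.J4T.Fix
import Cfsg.Agent.J4T.Slp
import Cfsg.Agent.J4T.GL2Pres
import Cfsg.Agent.Rec.SylTools
import Cfsg.Agent.Spor.MB.N11
import Cfsg.Agent.GT.PGroupExtraspecial
import Cfsg.Agent.FT.B4Aux2
import Cfsg.Agent.S3074

/-!
The Sylow 11-subgroups and the Sylow 23-subgroups.
-/

set_option autoImplicit false

namespace Cfsg.Agent.J4T

open Cfsg.Agent.Spor Cfsg.Agent.Spor.MB Cfsg.Agent.Spor.J4C Subgroup Cfsg.Agent.Inv.Fz MulAction Cfsg.Agent.Rec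

variable {G : Type*} [Group G]

theorem card_NZ_x11_le : Nat.card (NZ x11) ≤ 110 := by
  have h1 : orbS (NZ x11) (pt 0) ⊆ (fixSet x11 : Set GolayPt) := by
    rintro _ ⟨a, ha, rfl⟩
    rw [← smul_fixSet_of_mem_NZ ha]
    exact Finset.mem_coe.2 (Finset.smul_mem_smul_finset (by rw [fixSet_x11]; decide +kernel))
  have h2 := Set.ncard_le_ncard h1
  rw [Set.ncard_coe_finset, card_fixSet_x11] at h2
  have h3 : NZ x11 ⊓ stabilizer PG (pt 0) ≤ N22 := by
    rintro a ⟨ha, hb⟩
    refine ⟨⟨⟨ha.1, ?_⟩, hb⟩, ha⟩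
    have h4 : a • pt 23 ∈ fixSet x11 := by
      rw [← smul_fixSet_of_mem_NZ ha]
      exact Finset.smul_mem_smul_finset (by rw [fixSet_x11]; decide +kernel)
    have h5 : ∀ q ∈ unmask 8388609, q = pt 23 ∨ q = pt 0 := by decide +kernel
    rcases h5 _ (fixSet_x11 ▸ h4) with h | h
    · exact h
    · rw [← mem_stabilizer_iff.1 hb, smul_left_cancel_iff] at h
      exact absurd h (by decide +kernel)
  have h4 := card_le_of_le h3
  rw [← ncard_orbS_mul (NZ x11) (pt 0), card_N22] at *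
  calc _ ≤ 2 * 55 := Nat.mul_le_mul h2 h4
    _ = 110 := rfl

theorem card_NZ_of_conj {x y : PG} {p : ℕ} (hx : orderOf x = p) (hy : orderOf y = p)
    (h : ∃ k ∈ M24, k * x * k⁻¹ ∈ zpowers y) : Nat.card (NZ x) = Nat.card (NZ y) := by
  obtain ⟨k, hk, h⟩ := h
  rw [← card_NZ_conj hk, NZ_eq_of_zpowers_eq (eq_of_le_of_card_ge (zpowers_le.2 h) ?_)]
  rw [Nat.card_zpowers, Nat.card_zpowers, hy, ← hx]
  exact (orderOf_injective (MulAut.conj k).toMonoidHom (MulAut.conj k).injective x).ge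

theorem cent_zpowers (x : G) : centralizer (zpowers x : Set G) = centralizer {x} := by
  rw [zpowers_eq_closure, centralizer_closure]

theorem card_norm_syl [Finite G] {p : ℕ} [Fact p.Prime] (P Q : Sylow p G) :
    Nat.card (normalizer ((P : Subgroup G) : Set G)) = Nat.card (normalizer ((Q : Subgroup G) : Set G)) := by
  have h1 := (normalizer ((P : Subgroup G) : Set G)).index_mul_card
  have h2 := (normalizer ((Q : Subgroup G) : Set G)).index_mul_card
  rw [show (normalizer ((P : Subgroup G) : Set G)).index = _ from P.card_eq_index_normalizer.symm] at h1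
  rw [show (normalizer ((Q : Subgroup G) : Set G)).index = _ from Q.card_eq_index_normalizer.symm] at h2
  exact Nat.eq_of_mul_eq_mul_left Nat.card_pos (h1.trans h2.symm)

/-- The class of `x` under `K`. -/
theorem ncard_cls_mul (K : Subgroup G) (x : G) :
    {y | ∃ a ∈ K, y = a * x * a⁻¹}.ncard * Nat.card ↥(K ⊓ centralizer ({x} : Set G)) = Nat.card K := by
  let _ : MulAction G G := MulAction.compHom G (MulAut.conj (G := G))
  have h := ncard_orbS_mul K x
  rwa [show stabilizer G x = centralizer {x} from Subgroup.ext fun a => by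
    rw [mem_cen']; exact Iff.rfl] at h

namespace StJ

variable [Finite G] {z : G} {g l : ℕ → G} {π : centralizer ({z} : Set G) →* PG} {ψ : M24 →* G} (s : StJ z π g l ψ)

include s

omit [Finite G] in
theorem orderOf_psi (x : M24) : orderOf (ψ x) = orderOf (x : PG) := by
  rw [orderOf_injective ψ ((injective_iff_map_eq_one _).2 fun y hy => s.t.m.inj y (hy ▸ one_mem _)), orderOf_coe]

theorem psi_mem_N (x : M24) : ψ x ∈ normalizer (VG z g l : Set G) := by
  obtain ⟨σ, h⟩ := s.t.m.exists_fr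
  exact (h.psi x).1

omit [Finite G] in
theorem card_NV : Nat.card (normalizer (VG z g l : Set G)) = 501397585920 := s.full_H ▸ s.full.card_H

theorem card_F_le {x : M24} (hx : Odd (orderOf (x : PG))) :
    Nat.card ↥(normalizer (VG z g l : Set G) ⊓ normalizer (zpowers (ψ x) : Set G)) ≤
      Nat.card ↥(VG z g l ⊓ centralizer (zpowers (ψ x) : Set G)) * Nat.card (NZ x) := by
  obtain ⟨σ, h⟩ := s.t.m.exists_fr
  obtain ⟨E, h1, h2⟩ := h.exists_image (F := _ ⊓ normalizer (zpowers (ψ x) : Set G)) inf_le_left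
  rw [h2]
  refine Nat.mul_le_mul (card_le_of_le ?_) (card_le_of_le fun e he => ?_)
  · rintro v ⟨⟨-, h3⟩, h4⟩
    refine mem_inf.2 ⟨h4, ?_⟩
    rw [cent_zpowers, mem_cen, ← mul_inv_eq_one]
    have h5 : v * ψ x * (ψ x * v)⁻¹ ∈ VG z g l := by
      rw [show v * ψ x * (ψ x * v)⁻¹ = v * ((ψ x) * v * (ψ x)⁻¹)⁻¹ by group]
      exact mul_mem h4 (inv_mem (conj_mem_of_mem_norm (h.psi x).1 h4))
    have h6 : v * ψ x * (ψ x * v)⁻¹ ∈ zpowers (ψ x) := by
      rw [show v * ψ x * (ψ x * v)⁻¹ = v * ψ x * v⁻¹ * (ψ x)⁻¹ by group]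
      exact mul_mem (conj_mem_of_mem_norm h3 (mem_zpowers _)) (inv_mem (mem_zpowers _))
    refine eq_one_of_odd_of_sq (k := 1) ?_ h6 (by rw [pow_one, sq, h.sq_W h5])
    rwa [Nat.card_zpowers, s.orderOf_psi]
  · obtain ⟨a, ⟨h3, h4⟩, rfl⟩ := (h1 e).1 he
    obtain ⟨k, hk⟩ := conj_mem_of_mem_norm h4 (mem_zpowers (ψ x))
    refine mem_NZ.2 ⟨h.m24 a, k, ?_⟩
    have h5 := congrArg σ hk
    beta_reduce at h5 ⊢
    rw [← map_zpow, (h.psi _).2, h.hom _ (mul_mem h3 (h.psi x).1) _ (inv_mem h3), h.hom _ h3 _ (h.psi x).1,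
      h.sg_inv h3, (h.psi x).2] at h5
    exact h5

theorem card_norm_psi11 {x : M24} (hx : orderOf (x : PG) = 11) :
    Nat.card (normalizer (zpowers (ψ x) : Set G)) ≤ 2420 := by
  have : Fact (Nat.Prime 11) := ⟨by norm_num⟩
  have ho := (s.orderOf_psi x).trans hx
  have h1 := s.card_F_le (x := x) (by rw [hx]; decide)
  obtain ⟨k, h2, h3, h4⟩ := s.x.card_fix le_rfl this.out ho (s.psi_mem_N x)
  have h5 := s.x.card_fix_ne this.out (by norm_num) ho
  rw [s.x.card_V] at h4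
  obtain rfl : k = 1 := by
    rw [h3] at h5
    interval_cases k <;> first | rfl | exact absurd h4 (by decide) | exact absurd rfl h5
  rw [h3, card_NZ_of_conj hx orderOf_x11 (exists_conj_mem_zpowers_x11 x.2 hx)] at h1
  have h6 := card_NZ_x11_le
  obtain ⟨f, f0, f1, f2⟩ := full_card_norm s.full (p := 11) (U := zpowers (ψ x))
    (isSylIn_of_card (k := 1) (m := 45581598720) (s.full_H ▸ zpowers_le.2 (s.psi_mem_N x))
      (by rw [Nat.card_zpowers, ho, pow_one]) s.full.card_H (by norm_num))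
  rw [s.full_H, Nat.card_zpowers, ho] at *
  have h7 : ∀ i < 6, i ≠ 0 → f i = 0 := fun i hi h0 => (f2 i (by omega)).2.resolve_right fun h => by
    interval_cases i <;> first | exact h0 rfl | exact absurd h.1 (by decide)
  obtain ⟨h8, h9⟩ := f2 6 (by norm_num)
  have h10 : f 6 % 11 = 10 := h8
  have h11 := Nat.le_of_dvd Nat.card_pos (h9.resolve_left (by omega)).2
  simp only [Finset.sum_range_succ, Finset.sum_range_zero, f0, h7 1, h7 2, h7 3, h7 4, h7 5, ne_eq, Nat.reduceLT,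
    OfNat.ofNat_ne_zero, one_ne_zero, not_false_eq_true] at f1
  rw [f1, show f 6 = 10 by omega]
  omega

theorem card_norm_psi23 {x : M24} (hx : orderOf (x : PG) = 23) :
    Nat.card (normalizer (zpowers (ψ x) : Set G)) ≤ 506 := by
  have : Fact (Nat.Prime 23) := ⟨by norm_num⟩
  have ho := (s.orderOf_psi x).trans hx
  have h1 := s.card_F_le (x := x) (by rw [hx]; decide)
  obtain ⟨k, h2, h3, h4⟩ := s.x.card_fix le_rfl this.out ho (s.psi_mem_N x)
  have h5 := s.x.card_fix_ne this.out (by norm_num) ho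
  rw [s.x.card_V] at h4
  obtain rfl : k = 0 := by
    rw [h3] at h5
    interval_cases k <;> first | rfl | exact absurd h4 (by decide) | exact absurd rfl h5
  rw [h3, card_NZ_of_conj hx orderOf_x23 (exists_conj_mem_zpowers_x23 x.2 hx)] at h1
  have h6 := card_NZ_x23_le
  obtain ⟨f, f0, f1, f2⟩ := full_card_norm s.full (p := 23) (U := zpowers (ψ x))
    (isSylIn_of_card (k := 1) (m := 21799895040) (s.full_H ▸ zpowers_le.2 (s.psi_mem_N x))
      (by rw [Nat.card_zpowers, ho, pow_one]) s.full.card_H (by norm_num))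
  rw [s.full_H, Nat.card_zpowers, ho] at *
  have h7 : ∀ i < 6, i ≠ 0 → f i = 0 := fun i hi h0 => (f2 i (by omega)).2.resolve_right fun h => by
    interval_cases i <;> first | exact h0 rfl | exact absurd h.1 (by decide)
  obtain ⟨h8, h9⟩ := f2 6 (by norm_num)
  have h10 : f 6 % 23 = 1 := h8
  have h11 := Nat.le_of_dvd Nat.card_pos (h9.resolve_left (by omega)).2
  simp only [Finset.sum_range_succ, Finset.sum_range_zero, f0, h7 1, h7 2, h7 3, h7 4, h7 5, ne_eq, Nat.reduceLT,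
    OfNat.ofNat_ne_zero, one_ne_zero, not_false_eq_true] at f1
  rw [f1, show f 6 = 1 by omega]
  omega

end StJ

namespace E11

variable {a b c u h w n : G} (e : E11 a b c u h w n)

include e

theorem map {G' : Type*} [Group G'] (φ : G ≃* G') :
    E11 (φ a) (φ b) (φ c) (φ u) (φ h) (φ w) (φ n) := by
  obtain ⟨k1, k2, k3, k4, k5, k6, k7, k8, k9, k10, k11, k12, k13, k14, k15, k16, k17, k18, k19, k20, k21, k22, k23,
    l0, l1, l2, l3⟩ := e
  constructor <;>
    simpa only [← map_pow, ← map_mul, ne_eq, EmbeddingLike.map_eq_one_iff, EmbeddingLike.apply_eq_iff_eq]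

theorem not_comm : b * c ≠ c * b := fun h => e.a1 (by
  have := e.bc
  rwa [h, mul_assoc, right_eq_mul] at this)

theorem ord_a : orderOf a = 11 := by
  have : Fact (Nat.Prime 11) := ⟨by norm_num⟩
  exact orderOf_eq_prime e.a11 e.a1

theorem ord_b : orderOf b = 11 := by
  have : Fact (Nat.Prime 11) := ⟨by norm_num⟩
  exact orderOf_eq_prime e.b11 fun h => e.not_comm (by simp [h])

theorem a_mem : a ∈ clos [b, c] := by
  rw [show a = b * c * b⁻¹ * c⁻¹ by rw [e.bc]; group]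
  have hb : b ∈ clos [b, c] := mem_clos (by simp)
  have hc : c ∈ clos [b, c] := mem_clos (by simp)
  exact mul_mem (mul_mem (mul_mem hb hc) (inv_mem hb)) (inv_mem hc)

theorem a_comm {x : G} (hx : x ∈ clos [b, c]) : x * a = a * x :=
  mem_cen.1 (clos_le.2 (by simp [mem_cen, e.ab, e.ac]) hx)

variable [Finite G]

theorem isPGroup : IsPGroup 11 (clos [b, c]) := by
  have hz : ∀ {x : G}, x ^ 11 = 1 → IsPGroup 11 (clos [x]) := fun {x} hx => by
    rw [Syl.clos_singleton]
    rintro ⟨_, k, rfl⟩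
    refine ⟨1, Subtype.ext ?_⟩
    show (x ^ k) ^ 11 ^ 1 = 1
    rw [pow_one, ← zpow_natCast, ← zpow_mul, mul_comm, zpow_mul, zpow_natCast, hx, one_zpow]
  have ha : a ∈ clos [a, b] := mem_clos (by simp)
  have hb : b ∈ clos [a, b] := mem_clos (by simp)
  have h1 : IsPGroup 11 (clos [a, b]) := by
    refine (IsPGroup.to_sup_of_normal_left' (hz e.a11) (hz e.b11) (Syl.mem_normalizer_clos ?_)).to_le ?_
    · simp [← e.ab, mem_clos]
    · simp [clos_le, mem_sup_left, mem_sup_right, mem_clos]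
  refine (IsPGroup.to_sup_of_normal_left' h1 (hz e.c11) (Syl.mem_normalizer_clos ?_)).to_le ?_
  · have : c * b * c⁻¹ = a⁻¹ * b := by rw [mul_inv_eq_iff_eq_mul, mul_assoc, e.bc]; group
    simp [← e.ac, this, ha, mul_mem (inv_mem ha) hb]
  · simp [clos_le, mem_sup_left hb, mem_sup_right, mem_clos]

theorem card_U (hG : ¬ 11 ^ 4 ∣ Nat.card G) : Nat.card (clos [b, c]) = 11 ^ 3 := by
  have : Fact (Nat.Prime 11) := ⟨by norm_num⟩
  obtain ⟨k, hk⟩ := IsPGroup.iff_card.1 e.isPGroup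
  have h1 : k < 4 := not_le.1 fun h => hG ((pow_dvd_pow 11 h).trans (hk ▸ card_subgroup_dvd_card _))
  have h2 : 2 < k := not_le.1 fun h => e.not_comm (congrArg Subtype.val
    ((FT.b4_comm_of_card_le_sq e.isPGroup (hk ▸ Nat.pow_le_pow_right (by norm_num) h)).is_comm.comm
      ⟨b, mem_clos (by simp)⟩ ⟨c, mem_clos (by simp)⟩))
  rw [hk, show k = 3 by omega]

theorem extra (hG : ¬ 11 ^ 4 ∣ Nat.card G) : Cfsg.IsExtraspecial 11 (clos [b, c]) := by
  have : Fact (Nat.Prime 11) := ⟨by norm_num⟩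
  exact S3074.isExtraspecial_of_card_cube (e.card_U hG) fun h => e.not_comm (congrArg Subtype.val
    (h.is_comm.comm ⟨b, mem_clos (by simp)⟩ ⟨c, mem_clos (by simp)⟩))

theorem pow_eleven (hG : ¬ 11 ^ 4 ∣ Nat.card G) {x : G} (hx : x ∈ clos [b, c]) : x ^ 11 = 1 := by
  have : Fact (Nat.Prime 11) := ⟨by norm_num⟩
  have h1 : clos [b, c] ≤ (Cfsg.omegaOne 11 (⊤ : Subgroup (clos [b, c]))).map (clos [b, c]).subtype := by
    refine clos_le.2 fun y hy => ⟨⟨y, mem_clos hy⟩, GT.PG.mem_omegaOne (mem_top _) (Subtype.ext ?_), rfl⟩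
    simp only [List.mem_cons, List.not_mem_nil, or_false] at hy
    rcases hy with rfl | rfl
    exacts [e.b11, e.c11]
  obtain ⟨y, h2, rfl⟩ := h1 hx
  exact congrArg Subtype.val (((e.extra hG).index_omegaOne_le (by norm_num)).2 y h2)

theorem le_norm : clos [u, h, w, n] ≤ normalizer (clos [b, c] : Set G) := by
  have ha := e.a_mem
  have hb : b ∈ clos [b, c] := mem_clos (by simp)
  have hc : c ∈ clos [b, c] := mem_clos (by simp)
  refine Syl.mem_normalizer_clos ?_
  have k : ∀ i j k : ℕ, b ^ i * c ^ j * a ^ k ∈ clos [b, c] := fun i j k =>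
    mul_mem (mul_mem (pow_mem hb i) (pow_mem hc j)) (pow_mem ha k)
  simp [e.ub, e.uc, e.hb, e.hc, e.wb, e.wc, e.nb, e.nc, pow_mem, k, hb, hc]

theorem exists_gl : ∃ f : GL (Fin 2) (ZMod 3) →* normalizer (clos [b, c] : Set G), Function.Injective f :=
  GL2P.exists_GL23 (u := ⟨u, e.le_norm (mem_clos (by simp))⟩) (h := ⟨h, e.le_norm (mem_clos (by simp))⟩)
    (w := ⟨w, e.le_norm (mem_clos (by simp))⟩) (Subtype.ext e.u3) (Subtype.ext e.hh) (Subtype.ext e.ww)
    (Subtype.ext e.hu) (Subtype.ext e.h5) (Subtype.ext e.h6) (Subtype.ext e.h7)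
    (fun k => e.h8 (congrArg Subtype.val k)) fun k => e.h9 (congrArg Subtype.val k)

theorem dvd_card (hG : ¬ 11 ^ 4 ∣ Nat.card G) : 319440 ∣ Nat.card (normalizer (clos [b, c] : Set G)) := by
  have : Fact (Nat.Prime 5) := ⟨by norm_num⟩
  obtain ⟨f, hf⟩ := e.exists_gl
  have h1 := card_dvd_of_injective f hf
  rw [Matrix.card_GL_field, ZMod.card] at h1
  have h2 := card_dvd_of_le (le_normalizer (H := clos [b, c]))
  rw [e.card_U hG] at h2
  have h3 := orderOf_dvd_natCard (⟨n ^ 2, pow_mem (e.le_norm (mem_clos (by simp))) 2⟩ :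
    normalizer (clos [b, c] : Set G))
  rw [← orderOf_coe, orderOf_eq_prime (p := 5) (by rw [← pow_mul]; exact e.n10) e.n2] at h3
  exact Nat.Coprime.mul_dvd_of_dvd_of_dvd (m := 48 * 5) (n := 11 ^ 3) (by norm_num)
    (Nat.Coprime.mul_dvd_of_dvd_of_dvd (by norm_num) (by simpa [Fin.prod_univ_two] using h1) h3) h2

theorem card_cent_le (hN : Nat.card (normalizer (zpowers b : Set G)) ≤ 2420) :
    Nat.card (centralizer ({b} : Set G)) ≤ 242 := by
  have : Fact (Nat.Prime 11) := ⟨by norm_num⟩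
  obtain ⟨m, h1, h2, -, h3, -⟩ := Syl.exists_automizer e.ord_b
  obtain ⟨j, h4, h5⟩ := h3 n 2 (mul_inv_eq_of_eq_mul e.nb)
  have h6 : m = 10 := by
    have h7 := Nat.le_of_dvd (by norm_num) (h4.trans h1)
    have h8 : j = 10 := by
      have := h4.trans h1
      interval_cases j <;> first | rfl | exact absurd h5 (by decide) | exact absurd this (by decide)
    exact Nat.dvd_antisymm h1 (h8 ▸ h4)
  rw [h2, h6, cent_zpowers] at hN
  omega

/-- The order of the normaliser, the order of `C(b)`, and fusion in the Sylow subgroup. -/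
theorem main (hG : ¬ 11 ^ 4 ∣ Nat.card G) (hC : Nat.card (centralizer ({b} : Set G)) ≤ 242) :
    Nat.card (normalizer (clos [b, c] : Set G)) = 319440 ∧ Nat.card (centralizer ({b} : Set G)) = 242 ∧
      centralizer ({b} : Set G) ≤ normalizer (clos [b, c] : Set G) ∧
      ∀ x ∈ clos [b, c], x ∈ zpowers a ∨ ∃ k ∈ normalizer (clos [b, c] : Set G), x = k * b * k⁻¹ := by
  set N := normalizer (clos [b, c] : Set G)
  have h1 := ncard_cls_mul N b
  have h2 : {y | ∃ k ∈ N, y = k * b * k⁻¹} ⊆ (clos [b, c] : Set G) \ zpowers a := by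
    rintro _ ⟨k, hk, rfl⟩
    refine ⟨conj_mem_of_mem_norm hk (mem_clos (by simp)), fun ⟨i, hi⟩ => e.not_comm ?_⟩
    have h3 := ((show Commute (k * c * k⁻¹) a from
      e.a_comm (conj_mem_of_mem_norm hk (mem_clos (by simp)))).zpow_right i).eq
    beta_reduce at hi
    rw [hi, conj_mul, conj_mul, mul_left_inj, mul_right_inj] at h3
    exact h3.symm
  have h3 : ((clos [b, c] : Set G) \ zpowers a).ncard = 1320 := by
    rw [Set.ncard_sdiff (zpowers_le.2 e.a_mem), ← Nat.card_coe_set_eq, ← Nat.card_coe_set_eq, SetLike.coe_sort_coe,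
      SetLike.coe_sort_coe, e.card_U hG, Nat.card_zpowers, e.ord_a]
    rfl
  have h4 := Set.ncard_le_ncard h2
  have h5 := card_le_of_le (inf_le_right (a := N) (b := centralizer ({b} : Set G)))
  have h6 : 319440 ≤ Nat.card N := Nat.le_of_dvd Nat.card_pos (e.dvd_card hG)
  rw [h3] at h4
  have h7 : Nat.card ↥(N ⊓ centralizer ({b} : Set G)) = 242 := by
    by_contra h
    have := Nat.mul_le_mul h4 (show Nat.card ↥(N ⊓ centralizer ({b} : Set G)) ≤ 241 by omega)
    omega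
  rw [h7] at h1
  refine ⟨by omega, by omega, inf_eq_right.1 (eq_of_le_of_card_ge inf_le_right (by omega)), fun x hx => ?_⟩
  by_cases h8 : x ∈ zpowers a
  · exact Or.inl h8
  · exact Or.inr ((Set.eq_of_subset_of_ncard_le h2 (by omega)).ge ⟨hx, h8⟩)

theorem isConj_a {x : G} (hx : x ∈ zpowers a) (h1 : x ≠ 1) : IsConj a x := by
  obtain ⟨i, hi, rfl⟩ : ∃ i < 11, a ^ i = x := by
    obtain ⟨i, hi⟩ := mem_powers_iff_mem_zpowers.2 hx
    exact ⟨i % 11, Nat.mod_lt _ (by norm_num), by rw [← pow_eq_pow_mod i e.a11]; exact hi⟩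
  have h2 : ∀ k : ℕ, IsConj a (a ^ 7 ^ k) := fun k => by
    induction k with
    | zero => rw [pow_zero, pow_one]
    | succ k ih =>
      refine ih.trans (isConj_iff.2 ⟨n, ?_⟩)
      rw [← conj_pow, mul_inv_eq_of_eq_mul e.na, ← pow_mul, pow_succ']
  have h3 : ∀ i < 11, i ≠ 0 → ∃ k < 10, 7 ^ k % 11 = i := by decide
  obtain ⟨k, -, hk⟩ := h3 i hi fun h => h1 (by rw [h, pow_zero])
  rw [← hk, ← pow_eq_pow_mod _ e.a11]
  exact h2 k

end E11

namespace StJ

variable [Finite G] {z : G} {g l : ℕ → G} {π : centralizer ({z} : Set G) →* PG} {ψ : M24 →* G} (s : StJ z π g l ψ)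

include s

omit [Finite G] in
theorem not_dvd_eleven : ¬ 11 ^ 4 ∣ Nat.card G := by rw [s.card]; norm_num

theorem exists_e11 : ∃ a b c u h w n : G, E11 a b c u h w n ∧ (∃ y, b = ψ y) ∧
    Nat.card (centralizer ({b} : Set G)) ≤ 242 ∧ IsSylIn 11 (clos [b, c]) ⊤ := by
  have : Fact (Nat.Prime 11) := ⟨by norm_num⟩
  obtain ⟨e, h1, -⟩ := s.exists_equiv
  obtain ⟨a, b, c, u, h, w, n, ⟨y, rfl⟩, h2⟩ := exists_11 e
  rw [h1] at h2
  exact ⟨a, _, c, u, h, w, n, h2, ⟨y, rfl⟩, h2.card_cent_le (s.card_norm_psi11 (s.orderOf_psi y ▸ h2.ord_b)),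
    isSylIn_of_card (m := 65195770883604480) le_top (h2.card_U s.not_dvd_eleven) (by rw [card_top, s.card]; norm_num)
      (by norm_num)⟩

theorem exists_e11_syl (U : Sylow 11 G) : ∃ a b c u h w n : G, E11 a b c u h w n ∧
    Nat.card (centralizer ({b} : Set G)) ≤ 242 ∧ clos [b, c] = U := by
  have : Fact (Nat.Prime 11) := ⟨by norm_num⟩
  obtain ⟨a, b, c, u, h, w, n, e, -, h1, h2⟩ := s.exists_e11
  obtain ⟨k, hk⟩ := MulAction.exists_smul_eq G h2.toSylowTop U
  refine ⟨_, _, _, _, _, _, _, e.map (MulAut.conj k), ?_, ?_⟩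
  · rwa [MulAut.conj_apply, ← Syl.card_centralizer_conj (x := b) (isConj_iff.2 ⟨k, rfl⟩)]
  · rw [← hk]
    show _ = (clos [b, c]).map (MulAut.conj k).toMonoidHom
    rw [clos, clos, MonoidHom.map_closure]
    congr 1
    ext x
    simp [eq_comm]

/-- The two classes of elements of order 11. -/
theorem eleven_classes : ∃ a b : G, orderOf a = 11 ∧ orderOf b = 11 ∧ 11 ^ 3 ∣ Nat.card (centralizer ({a} : Set G)) ∧
    Nat.card (centralizer ({b} : Set G)) = 242 ∧ ∀ x : G, orderOf x = 11 → IsConj x a ∨ IsConj x b := by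
  have : Fact (Nat.Prime 11) := ⟨by norm_num⟩
  obtain ⟨a, b, c, u, h, w, n, e, -, h1, h2⟩ := s.exists_e11
  obtain ⟨-, h3, -, h4⟩ := e.main s.not_dvd_eleven h1
  refine ⟨a, b, e.ord_a, e.ord_b, e.card_U s.not_dvd_eleven ▸ card_dvd_of_le fun x hx => mem_cen.2 (e.a_comm hx), h3,
    fun x hx => ?_⟩
  obtain ⟨k, -, hk⟩ := exists_conj_mem_syl h2 (mem_top x) (k := 1) (by rw [pow_one, ← hx, pow_orderOf_eq_one])
  have h5 : IsConj x (k * x * k⁻¹) := isConj_iff.2 ⟨k, rfl⟩
  rcases h4 _ hk with h6 | ⟨j, -, h6⟩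
  · exact Or.inl (h5.trans (e.isConj_a h6 fun h7 => by simp [conj_eq_one.1 h7] at hx).symm)
  · exact Or.inr (h5.trans (isConj_iff.2 ⟨j, h6.symm⟩).symm)

theorem syl23 (U : Sylow 23 G) : centralizer ((U : Subgroup G) : Set G) = U ∧
    Nat.card (normalizer ((U : Subgroup G) : Set G)) = 23 * 22 := by
  have : Fact (Nat.Prime 23) := ⟨by norm_num⟩
  obtain ⟨e, -⟩ := s.exists_equiv
  obtain ⟨u, h, w, h1, -, -, h2, -, -, h3⟩ := exists_23 e
  obtain ⟨y, n, h4, h5, h6⟩ := Syl.exists_gen (m := 3772850915046850560) s.card (by norm_num) U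
    ⟨u, h, orderOf_eq_prime h1 fun k => h3 (by simp [k]), mul_inv_eq_of_eq_mul h2⟩
  have h7 := s.card_norm_psi23 (x := ⟨x23, x23_mem⟩) orderOf_x23
  have h8 : IsSylIn 23 (zpowers (ψ ⟨x23, x23_mem⟩)) ⊤ := isSylIn_of_card (k := 1) (m := 3772850915046850560) le_top
    (by rw [Nat.card_zpowers, s.orderOf_psi, orderOf_x23, pow_one]) (by rw [card_top, s.card]; norm_num) (by norm_num)
  rw [show Nat.card (normalizer (zpowers (ψ ⟨x23, x23_mem⟩) : Set G)) = _ from card_norm_syl h8.toSylowTop U] at h7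
  rw [← h6] at h7 ⊢
  obtain ⟨m, k1, k2, -, k3, -⟩ := Syl.exists_automizer h4
  obtain ⟨j, k4, k5⟩ := k3 n 5 h5
  have k6 : m = 22 := by
    have k7 := Nat.le_of_dvd (by norm_num) (k4.trans k1)
    have k8 : j = 22 := by
      have := k4.trans k1
      interval_cases j <;> first | rfl | exact absurd k5 (by decide) | exact absurd this (by decide)
    exact Nat.dvd_antisymm k1 (k8 ▸ k4)
  have k9 : zpowers y ≤ centralizer (zpowers y : Set G) := by
    rw [cent_zpowers, zpowers_le, mem_cen]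
  have k10 := card_le_of_le k9
  rw [Nat.card_zpowers, h4] at k10
  rw [k2, k6] at h7 ⊢
  exact ⟨(eq_of_le_of_card_ge k9 (by rw [Nat.card_zpowers, h4]; omega)).symm, by omega⟩

end StJ

end Cfsg.Agent.J4T
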