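import Mathlib
import Cfsg.Agent.J4T.Mx
import Cfsg.Agent.J4T.Elev

/-!
Certificates for the intersection of a subgroup with the normaliser of a cyclic subgroup.
-/

set_option autoImplicit false

namespace Cfsg.Agent.J4T

open Cfsg.Agent.Spor Cfsg.Agent.Spor.MB Cfsg.Agent.Spor.J4C Subgroup Cfsg.Agent.Rec

namespace Cov

/-- Powers by repeated squaring. -/
noncomputable def pw2 (A : Ar) (a fuel : ℕ) : ℕ → ℕ :=
  Nat.rec (motive := fun _ => ℕ → ℕ) (fun e => A.pow a e)
    (fun _ ih e => Bool.rec (Spor.force (ih (Nat.div e 2)) fun b => Spor.force (A.mul b b) fun b2 =>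
      Bool.rec b2 (A.mul b2 a) (Nat.beq (Nat.mod e 2) 1)) a (Nat.beq e 1)) fuel

/-- The value of a word. -/
noncomputable def ev1 (A : Ar) (c w : List ℕ) : ℕ :=
  List.rec A.one (fun x t ih => List.rec (nth A.one c x)
    (fun _ _ _ => Spor.force ih fun b => Spor.force (nth A.one c x) fun a => A.mul a b) t) w

/-- Runs a program: the instruction `e :: w` appends the `e`-th power of the word `w`. -/
noncomputable def runL (A : Ar) (prog : List (List ℕ)) (k : List ℕ → Bool) : List ℕ → Bool :=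
  List.rec (motive := fun _ => List ℕ → Bool) k (fun ins _ ih c => Spor.force (ev1 A c (tlL ins)) fun x =>
    Spor.force (pw2 A x (hdL ins) (hdL ins)) fun y => withL (appL c [y]) ih) prog

/-- The pairs of words in `eqs` are equal, those in `nes` are different. -/
noncomputable def chkE (A : Ar) (c : List ℕ) (eqs nes : List (List ℕ × List ℕ)) : Bool :=
  band (Spor.allL eqs fun p => Nat.beq (ev1 A c p.1) (ev1 A c p.2))
    (Spor.allL nes fun p => bneg (Nat.beq (ev1 A c p.1) (ev1 A c p.2)))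

/-- The product of the `T d * x` over the digits `d` of `k`. -/
noncomputable def tw (A : Ar) (T : List ℕ) (x k : ℕ) : ℕ :=
  Nat.rec (motive := fun _ => ℕ → ℕ → ℕ) (fun _ acc => acc)
    (fun _ ih k acc => Bool.rec (Spor.force (A.mul (A.mul acc (nth A.one T (Nat.land k 63))) x) fun b =>
      Spor.force (Nat.shiftRight k 6) fun k' => ih k' b) acc (Nat.beq k 0))
    4 (Nat.shiftRight k 6) (A.mul (nth A.one T (Nat.land k 63)) x)

/-- For every `p` in the list some word has order `p`. -/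
noncomputable def slots (A : Ar) (T : List ℕ) (x : ℕ) (ps : List ℕ) : ℕ → Bool :=
  List.rec (motive := fun _ => ℕ → Bool) (fun _ => true)
    (fun p _ ih k => Spor.force (tw A T x (Nat.land k 0xffffff)) fun a =>
      band (Nat.beq (pw2 A a p p) A.one) (band (bneg (Nat.beq a A.one)) (Spor.force (Nat.shiftRight k 24) ih))) ps

/-- One of two tests, as told by the stream. -/
noncomputable def alt (f g : ℕ → ℕ → Bool) (x s : ℕ) : Bool :=
  Spor.force (Nat.shiftRight s 1) fun k => Bool.rec (f x k) (g x k) (Nat.beq (Nat.land s 1) 0)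

/-- A walk in a tree. The nodes reached by a generator from `m` on are tested; `ks` lists keys of nodes. -/
noncomputable def mach (act : ℕ → ℕ → ℕ) (tst : ℕ → ℕ → Bool) (W m r fuel : ℕ) : ℕ → ℕ → List ℕ → List ℕ → Bool :=
  Nat.rec (motive := fun _ => ℕ → ℕ → List ℕ → List ℕ → Bool) (fun _ _ _ ks => List.rec true (fun _ _ _ => false) ks)
    (fun _ ih c s st ks => Spor.force (Nat.shiftRight c 4) fun c' =>
      Nat.rec (motive := fun _ => Bool) (List.rec (ih c' s [] ks) (fun _ t _ => ih c' s t ks) st)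
        (fun d _ => Spor.force (Nat.land d 7) fun i => Spor.force (act i (List.rec r (fun x _ _ => x) st)) fun y =>
          band (bor (blt i m) (tst y s)) (Spor.force (Bool.rec (Nat.shiftRight s W) s (blt i m)) fun s' =>
            Bool.rec (List.rec false (fun k t _ => band (Nat.beq k (Nat.land y 0xffffffff)) (ih c' s' (y :: st) t)) ks)
              (ih c' s' (y :: st) ks) (Nat.ble 8 d)))
        (Nat.land c 15)) fuel

/-- `y` normalises the cyclic group generated by `s`. -/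
noncomputable def nrm (A : Ar) (s y : ℕ) : Bool :=
  Spor.force (A.mul y s) fun a => bneg (allLt 8 fun k => bneg (Nat.beq a (A.mul (pw2 A s k k) y)))

/-- Selected registers. -/
noncomputable def sel (A : Ar) (c l : List ℕ) : List ℕ := l.map (nth A.one c)

/-- The data of a certificate. -/
structure Dat where
  D : List ℕ
  s : ℕ
  c : ℕ
  ys : List ℕ
  yi : List ℕ
  bs : List ℕ
  rs : List ℕ
  hs : List ℕ
  ks : List ℕ
  pT : List (List ℕ)
  pK : List (List ℕ)
  ps : List ℕ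
  m1 : ℕ
  m2 : ℕ

/-- The registers. -/
noncomputable def Dat.R (d : Dat) : List ℕ := appL mL d.D

/-- The matrices are the values of a program. -/
noncomputable def prgB (d : Dat) (prog : List (List ℕ)) (regs : List ℕ) : Bool :=
  runL arM prog (fun R => Spor.beqL (sel arM R regs) d.D) mL

/-- The first `m` members of `l` lie in `K`. -/
noncomputable def preB (l K : List ℕ) (m : ℕ) : Bool := allLt m fun i => MB.anyL (Nat.beq (nth arM.one l i)) K

/-- The relations between the registers. -/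
noncomputable def basB (d : Dat) (eqs nes : List (List ℕ × List ℕ)) : Bool :=
  withL d.R fun R => Spor.force (nth arM.one R d.s) fun s => Spor.force (nth arM.one R d.c) fun c =>
    band (chkE arM R eqs nes) (band (Spor.allL (sel arM R (appL d.ys (appL d.bs (appL d.rs d.ks)))) (nrm arM s))
    (band (Spor.allL (sel arM R d.bs) fun b => Nat.beq (arM.mul b c) (arM.mul c b))
    (band (allLt 8 fun i => Nat.beq (arM.mul (nth arM.one (sel arM R d.ys) i) (nth arM.one (sel arM R d.yi) i)) arM.one)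
    (band (preB (sel arM R d.ys) (sel arM R d.ks) d.m1) (preB (sel arM R d.bs) (sel arM R d.ks) d.m2)))))

/-- A walk with the two tables. -/
noncomputable def chB (d : Dat) (act : ℕ → ℕ → ℕ) (f : List ℕ → ℕ → ℕ → Bool) (m r fuel cert s : ℕ) (ks : List ℕ) :
    Bool :=
  withL (sel arM d.R d.hs) (runL arM d.pT fun T => withL (sel arM d.R d.ks) (runL arM d.pK fun K =>
    Spor.force (Nat.succ (Nat.mul 26 d.ps.length)) fun W => band (alt (f K) (fun x => slots arM T x d.ps) r s)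
      (mach act (alt (f K) fun x => slots arM T x d.ps) W m r fuel cert (Nat.shiftRight s W) [] ks)))

/-- A walk on the conjugates of `c`. -/
noncomputable def ch1 (d : Dat) (fuel cert s : ℕ) (ks : List ℕ) : Bool :=
  withL (sel arM d.R d.ys) fun Y => withL (sel arM d.R d.yi) fun I => withL (sel arM d.R d.rs) fun P =>
    Spor.force (nth arM.one d.R d.c) fun c =>
    chB d (fun i x => arM.mul (arM.mul (nth arM.one Y i) x) (nth arM.one I i))
      (fun K x k => band (blt (Nat.land k 3) d.rs.length) (Spor.force (arM.mul (tw arM K arM.one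
        (Nat.land (Nat.shiftRight k 2) 0xffffff)) (nth arM.one P (Nat.land k 3))) fun h =>
          Nat.beq (arM.mul x h) (arM.mul h c))) d.m1 c fuel cert s ks

/-- A walk on a coset of the centraliser of `c`. -/
noncomputable def ch2 (d : Dat) (j fuel cert s : ℕ) (ks : List ℕ) : Bool :=
  withL (sel arM d.R d.bs) fun B => Spor.force (nth arM.one (sel arM d.R d.rs) j) fun r =>
    chB d (fun i x => arM.mul x (nth arM.one B i))
      (fun K x k => Nat.beq x (tw arM K arM.one (Nat.land k 0xffffff))) d.m2 r fuel cert s ks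

variable {G : Type*} [Group G] {A : Ar} {C : Cod A G}

theorem rep_pw2 {a : ℕ} {x : G} (h : C.Rep a x) (fuel e : ℕ) : C.Rep (pw2 A a fuel e) (x ^ e) := by
  induction fuel generalizing e with
  | zero => exact h.pow e
  | succ f ih =>
    have e0 : pw2 A a (f + 1) e = Bool.rec (Bool.rec (A.mul (pw2 A a f (e / 2)) (pw2 A a f (e / 2)))
      (A.mul (A.mul (pw2 A a f (e / 2)) (pw2 A a f (e / 2))) a) (Nat.beq (e % 2) 1)) a (Nat.beq e 1) := rfl
    rw [e0]
    have h1 := (ih (e / 2)).mul (ih (e / 2))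
    cases h2 : Nat.beq e 1
    · cases h3 : Nat.beq (e % 2) 1
      · have h4 : e % 2 ≠ 1 := fun k => by simp [k] at h3
        rwa [← pow_add, show e / 2 + e / 2 = e by omega] at h1
      · have h4 := h1.mul h
        rwa [← pow_add, ← pow_succ, show e / 2 + e / 2 + 1 = e by have := (nbeq_iff _ _).1 h3; omega] at h4
    · rwa [(nbeq_iff _ _).1 h2, pow_one]

theorem rep_ev1 {c : List ℕ} {e : List G} (h : C.RepL c e) (w : List ℕ) : C.Rep (ev1 A c w) (evalW (nth 1 e) w) := by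
  induction w with
  | nil => exact Cod.rep_one
  | cons x w ih =>
    rw [evalW_cons]
    cases w with
    | nil => rw [evalW_nil, mul_one]; exact h.nth x
    | cons y w => exact (h.nth x).mul ih

theorem runL_sound {prog : List (List ℕ)} {k : List ℕ → Bool} {c : List ℕ} {e : List G} (h : C.RepL c e)
    (hr : runL A prog k c = true) : ∃ c' e', C.RepL c' (e ++ e') ∧ (∀ x ∈ e', x ∈ clos e) ∧ k c' = true := by
  induction prog generalizing c e with
  | nil => exact ⟨c, [], by simpa using h, by simp, hr⟩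
  | cons ins prog ih =>
    have h1 : withL (appL c [pw2 A (ev1 A c (tlL ins)) (hdL ins) (hdL ins)]) (runL A prog k) = true := hr
    rw [withL_eq, appL_eq] at h1
    obtain ⟨c', e', k1, k2, k3⟩ := ih (h.append ((rep_pw2 (rep_ev1 h _) _ _).cons Cod.repL_nil)) h1
    have h2 : evalW (nth 1 e) (tlL ins) ^ hdL ins ∈ clos e := pow_mem (evalW_mem fun i _ => nth_mem_clos e i) _
    refine ⟨c', _ :: e', by simpa using k1, fun x hx => ?_, k3⟩
    rcases List.mem_cons.1 hx with rfl | hx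
    · exact h2
    · refine clos_le.2 (fun y hy => ?_) (k2 x hx)
      rcases List.mem_append.1 hy with hy | hy
      · exact mem_clos hy
      · exact List.mem_singleton.1 hy ▸ h2

theorem chkE_sound {c : List ℕ} {e : List G} (h : C.RepL c e) {eqs nes : List (List ℕ × List ℕ)}
    (hc : chkE A c eqs nes = true) : (∀ p ∈ eqs, evalW (nth 1 e) p.1 = evalW (nth 1 e) p.2) ∧
      ∀ p ∈ nes, evalW (nth 1 e) p.1 ≠ evalW (nth 1 e) p.2 := by
  simp only [chkE, band_iff, Spor.allL_iff, bneg_iff, nbeq_iff] at hc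
  exact ⟨fun p hp => ((rep_ev1 h _).eq_iff (rep_ev1 h _)).1 (hc.1 p hp),
    fun p hp e => hc.2 p hp (((rep_ev1 h _).eq_iff (rep_ev1 h _)).2 e)⟩

theorem nth_mem {e : List G} {M : Subgroup G} (h : ∀ x ∈ e, x ∈ M) (i : ℕ) : nth 1 e i ∈ M :=
  clos_le.2 h (nth_mem_clos e i)

theorem rep_tw {T : List ℕ} {e : List G} (h : C.RepL T e) {M : Subgroup G} (hM : ∀ x ∈ e, x ∈ M) {a : ℕ} {x : G}
    (ha : C.Rep a x) (hx : x ∈ M) (k : ℕ) : ∃ y ∈ M, C.Rep (tw A T a k) y := by
  unfold tw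
  have h0 : ∃ y ∈ M, C.Rep (A.mul (nth A.one T (Nat.land k 63)) a) y :=
    ⟨_, mul_mem (nth_mem hM _) hx, (h.nth _).mul ha⟩
  generalize A.mul (nth A.one T (Nat.land k 63)) a = acc at h0
  generalize Nat.shiftRight k 6 = k
  induction 4 generalizing k acc with
  | zero => exact h0
  | succ f ih =>
    obtain ⟨y, h1, h2⟩ := h0
    dsimp only
    cases Nat.beq k 0
    · exact ih _ ⟨_, mul_mem (mul_mem h1 (nth_mem hM _)) hx, (h2.mul (h.nth _)).mul ha⟩ _
    · exact ⟨y, h1, h2⟩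

theorem slots_sound {T : List ℕ} {e : List G} (h : C.RepL T e) {M : Subgroup G} (hM : ∀ x ∈ e, x ∈ M) {a : ℕ} {x : G}
    (ha : C.Rep a x) (hx : x ∈ M) {ps : List ℕ} {k : ℕ} (hc : slots A T a ps k = true) :
    ∀ p ∈ ps, p.Prime → p ∣ Nat.card M := by
  induction ps generalizing k with
  | nil => simp
  | cons p ps ih =>
    have h1 : band (Nat.beq (pw2 A (tw A T a (Nat.land k 0xffffff)) p p) A.one)
      (band (bneg (Nat.beq (tw A T a (Nat.land k 0xffffff)) A.one)) (slots A T a ps (Nat.shiftRight k 24))) = true := hc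
    simp only [band_iff, bneg_iff, nbeq_iff] at h1
    obtain ⟨y, h2, h3⟩ := rep_tw h hM ha hx (Nat.land k 0xffffff)
    refine List.forall_mem_cons.2 ⟨fun hp => ?_, ih h1.2.2⟩
    have := Fact.mk hp
    exact orderOf_eq_prime (((rep_pw2 h3 p p).eq_iff Cod.rep_one).1 h1.1)
      (fun e => h1.2.1 ((h3.eq_iff Cod.rep_one).2 e)) ▸ orderOf_dvd_natCard _ h2

theorem alt_sound {f g : ℕ → ℕ → Bool} {x s : ℕ} (h : alt f g x s = true) : ∃ k, f x k = true ∨ g x k = true := by
  rw [alt, Spor.force_eq] at h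
  cases h3 : Nat.beq (Nat.land s 1) 0 <;> rw [h3] at h
  exacts [⟨_, Or.inl h⟩, ⟨_, Or.inr h⟩]

theorem mach_sound {act : ℕ → ℕ → ℕ} {tst : ℕ → ℕ → Bool} {W m r fuel : ℕ} {P : ℕ → Prop} (h0 : P r)
    (h1 : ∀ i < 8, ∀ x, P x → (i < m ∨ ∃ k, tst (act i x) k = true) → P (act i x)) {c s : ℕ} {st ks : List ℕ}
    (hs : ∀ x ∈ st, P x) (h : mach act tst W m r fuel c s st ks = true) :
    ∀ k ∈ ks, ∃ x, P x ∧ Nat.land x 0xffffffff = k := by
  induction fuel generalizing c s st ks with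
  | zero => cases ks with
    | nil => simp
    | cons k ks => exact absurd h Bool.false_ne_true
  | succ f ih =>
    unfold mach at h ih
    simp only [Spor.force_eq] at h ih
    generalize Nat.land c 15 = d at h
    cases d with
    | zero => cases st with
      | nil => exact ih hs h
      | cons x st => exact ih (fun y hy => hs y (List.mem_cons_of_mem _ hy)) h
    | succ d =>
      obtain ⟨h2, h3⟩ := (band_iff _ _).1 h
      have h4 : P (act (Nat.land d 7) (List.rec r (fun x _ _ => x) st)) :=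
        h1 _ (Nat.and_lt_two_pow d (n := 3) (by norm_num)) _ (by
          cases st with
          | nil => exact h0
          | cons x st => exact hs x (by simp)) (((bor_iff _ _).1 h2).imp (blt_iff _ _).1 fun h => ⟨_, h⟩)
      have h5 := List.forall_mem_cons.2 ⟨h4, hs⟩
      cases h6 : Nat.ble 8 d <;> rw [h6] at h3
      · cases ks with
        | nil => simp
        | cons k ks =>
          obtain ⟨h7, h8⟩ := (band_iff _ _).1 h3
          exact List.forall_mem_cons.2 ⟨⟨_, h4, ((nbeq_iff _ _).1 h7).symm⟩, ih h5 h8⟩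
      · exact ih h5 h3

theorem nrm_sound [Finite G] {s y : ℕ} {a b : G} (hs : C.Rep s a) (hy : C.Rep y b) (h : nrm A s y = true) :
    b ∈ normalizer (zpowers a : Set G) := by
  simp only [nrm, Spor.force_eq, bneg_iff, allLt_iff, nbeq_iff, not_forall, not_not] at h
  obtain ⟨k, -, h⟩ := h
  rw [mem_normalizer_zpowers_iff, ((hy.mul hs).eq_iff ((rep_pw2 hs k k).mul hy)).1 h, mul_inv_cancel_right]
  exact pow_mem (mem_zpowers a) k

theorem forall_of_repL {c : List ℕ} {e : List G} (h : C.RepL c e) {P : G → Prop}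
    (hP : ∀ a ∈ c, ∀ x, C.Rep a x → P x) : ∀ x ∈ e, P x := by
  induction h with
  | nil => simp
  | cons h1 _ ih =>
    exact List.forall_mem_cons.2 ⟨hP _ (by simp) _ h1, ih fun a ha => hP a (List.mem_cons_of_mem _ ha)⟩

theorem le_ncard [Finite G] {L : List ℕ} {n : ℕ} (h : distinct (fun x => x) n L = true) {S : Set G}
    (hS : ∀ k ∈ L, ∃ a, (∃ x ∈ S, C.Rep a x) ∧ Nat.land a 0xffffffff = k) : n ≤ S.ncard := by
  classical
  obtain ⟨h1, h2⟩ := distinct_spec h
  rw [List.map_id'] at h1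
  choose! f hf using hS
  rw [← h2, ← List.toFinset_card_of_nodup h1, ← Set.ncard_coe_finset]
  refine Set.ncard_le_ncard_of_injOn (fun k => C.elt (f k)) (fun k hk => ?_) fun k hk k' hk' e => ?_
  · obtain ⟨⟨x, h3, h4⟩, -⟩ := hf k (by simpa using hk)
    exact h4.2 ▸ h3
  · obtain ⟨⟨x, -, h3⟩, h4⟩ := hf k (by simpa using hk)
    obtain ⟨⟨y, -, h5⟩, h6⟩ := hf k' (by simpa using hk')
    rw [← h4, ← h6, C.inj h3.1 h5.1 e]

theorem repL_sel {c : List ℕ} {e : List G} (h : C.RepL c e) (l : List ℕ) : C.RepL (sel A c l) (l.map (nth 1 e)) := by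
  induction l with
  | nil => exact Cod.repL_nil
  | cons i l ih => exact (h.nth i).cons ih

theorem nth_append {e e' : List G} {i : ℕ} (h : i < e.length) : nth 1 (e ++ e') i = nth 1 e i := by
  rw [nth_of_lt _ h, nth_of_lt _ (by simp; omega), List.getElem_append_left]

theorem exists_of_mem {c : List ℕ} {e : List G} (h : C.RepL c e) {a : ℕ} (ha : a ∈ c) : ∃ x ∈ e, C.Rep a x := by
  induction h with
  | nil => simp at ha
  | cons h1 _ ih =>
    rcases List.mem_cons.1 ha with rfl | ha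
    · exact ⟨_, by simp, h1⟩
    · exact (ih ha).imp fun x hx => ⟨List.mem_cons_of_mem _ hx.1, hx.2⟩

variable {C : Cod arM G}

theorem preB_sound {l K : List ℕ} {e eK : List G} (hl : C.RepL l e) (hK : C.RepL K eK) {m : ℕ}
    (h : preB l K m = true) {i : ℕ} (hi : i < m) : nth 1 e i ∈ clos eK := by
  obtain ⟨a, h1, h2⟩ := MB.anyL_iff.1 ((allLt_iff _ _).1 h i hi)
  obtain ⟨x, h3, h4⟩ := exists_of_mem hK h1
  exact ((hl.nth i).eq_iff h4).1 ((nbeq_iff _ _).1 h2) ▸ mem_clos h3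

theorem chB_sound [Finite G] {d : Dat} {e : List G} (hR : C.RepL d.R e) {M : Subgroup G}
    (hM : ∀ i ∈ d.hs, nth 1 e i ∈ M) (hn : ¬ ∀ p ∈ d.ps, p.Prime → p ∣ Nat.card M) {act : ℕ → ℕ → ℕ}
    {f : List ℕ → ℕ → ℕ → Bool} {m r : ℕ} {S : Set G} {Q : G → Prop} {xr : G} (hr : C.Rep r xr) (h0 : xr ∈ S)
    (h1 : ∀ i < 8, ∀ a, ∀ x ∈ S, C.Rep a x → ∃ y ∈ S, C.Rep (act i a) y ∧ (i < m → (x ∈ M → Q x) → y ∈ M → Q y))
    (h2 : ∀ K eK, C.RepL K eK → (∀ x ∈ eK, x ∈ clos (d.ks.map (nth 1 e))) → ∀ a x k, C.Rep a x → f K a k = true → Q x)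
    {L : List (List ℕ)} (h : ∀ ks ∈ L, ∃ fuel cert s, chB d act f m r fuel cert s ks = true) {n : ℕ}
    (hd : distinct (fun x => x) n L.flatten = true) : n ≤ S.ncard ∧ (S.ncard ≤ n → ∀ x ∈ S, x ∈ M → Q x) := by
  have key : n ≤ {x ∈ S | x ∈ M → Q x}.ncard := le_ncard (C := C) hd fun k hk => by
    obtain ⟨ks, h3, h4⟩ := List.mem_flatten.1 hk
    obtain ⟨fuel, cert, s, h5⟩ := h ks h3
    rw [chB, withL_eq] at h5
    obtain ⟨T, eT, k1, k2, h6⟩ := runL_sound (repL_sel hR d.hs) h5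
    rw [withL_eq] at h6
    obtain ⟨K, eK, k3, k4, h7⟩ := runL_sound (repL_sel hR d.ks) h6
    rw [Spor.force_eq, band_iff] at h7
    have k5 : ∀ a x k, C.Rep a x → alt (f K) (fun x => slots arM T x d.ps) a k = true → x ∈ M → Q x :=
      fun a x k h8 h9 h10 => (alt_sound h9).elim fun j h11 => h11.elim
        (h2 K _ k3 (fun x hx => (List.mem_append.1 hx).elim mem_clos (k4 x)) a x j h8) fun h12 =>
          absurd (slots_sound k1 (fun x hx => clos_le.2 (show ∀ x ∈ d.hs.map (nth 1 e), x ∈ M by simpa using hM)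
            ((List.mem_append.1 hx).elim mem_clos (k2 x))) h8 h10 h12) hn
    refine mach_sound (P := fun a => ∃ x ∈ {x ∈ S | x ∈ M → Q x}, C.Rep a x) ⟨xr, ⟨h0, k5 _ _ _ hr h7.1⟩, hr⟩ ?_
      (by simp) h7.2 k h4
    rintro i hi a ⟨x, h8, h9⟩ h10
    obtain ⟨y, h11, h12, h13⟩ := h1 i hi a x h8.1 h9
    exact ⟨y, ⟨h11, h10.elim (fun h => h13 h h8.2) fun ⟨k, h⟩ => k5 _ _ k h12 h⟩, h12⟩
  exact ⟨key.trans (Set.ncard_le_ncard (Set.sep_subset _ _)), fun h x hx =>
    ((Set.eq_of_subset_of_ncard_le (Set.sep_subset _ _) (h.trans key)).ge hx).2⟩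

theorem cover [Finite G] {d : Dat} {e : List G} (hR : C.RepL d.R e) {eqs nes : List (List ℕ × List ℕ)}
    (h1 : basB d eqs nes = true) {n β : ℕ} {L : List (List ℕ)}
    (h2 : ∀ ks ∈ L, ∃ fuel cert s, ch1 d fuel cert s ks = true) (h3 : distinct (fun x => x) n L.flatten = true)
    (h4 : ∀ j < d.rs.length, ∃ L : List (List ℕ), (∀ ks ∈ L, ∃ fuel cert s, ch2 d j fuel cert s ks = true) ∧
      distinct (fun x => x) β L.flatten = true) {M : Subgroup G} (k1 : ∀ i ∈ d.hs, nth 1 e i ∈ M)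
    (k2 : ∀ i ∈ d.ks, nth 1 e i ∈ M) (k3 : nth 1 e d.c ∈ M)
    (k4 : Nat.card (normalizer (zpowers (nth 1 e d.s) : Set G)) ≤ n * β) (k5 : 0 < d.rs.length) :
    (∀ p ∈ d.ps, p.Prime → p ∣ Nat.card M) ∨
      M ⊓ normalizer (zpowers (nth 1 e d.s) : Set G) ≤ clos (d.ks.map (nth 1 e)) := by
  refine or_iff_not_imp_left.2 fun hn y hy0 => ?_
  obtain ⟨y1, y2⟩ := mem_inf.1 hy0
  simp only [basB, withL_eq, Spor.force_eq, band_iff, appL_eq, Spor.allL_iff, nbeq_iff, allLt_iff] at h1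
  obtain ⟨-, b1, b2, b3, b4, b5⟩ := h1
  set Y := normalizer (zpowers (nth 1 e d.s) : Set G)
  set B := clos (d.ks.map (nth 1 e))
  have hc := hR.nth d.c
  generalize nth 1 e d.c = xc at *
  have hY : ∀ l : List ℕ, (∀ a ∈ l, a ∈ d.ys ++ (d.bs ++ (d.rs ++ d.ks))) → ∀ x ∈ l.map (nth 1 e), x ∈ Y :=
    fun l hm => forall_of_repL (repL_sel hR l) fun a ha x hx => nrm_sound (hR.nth _) hx
      (b1 a (List.map_subset _ hm ha))
  have hBM : B ≤ M := clos_le.2 (by simpa using k2)
  have hBY : B ≤ Y := clos_le.2 (hY _ (by simp +contextual))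
  have hC : ∀ x ∈ d.bs.map (nth 1 e), x ∈ Y ⊓ centralizer {xc} := fun x hx => ⟨hY _ (by simp +contextual) x hx,
    forall_of_repL (repL_sel hR _) (fun a ha x hx => mem_cen.2 (((hx.mul hc).eq_iff (hc.mul hx)).1 (b2 a ha))) x hx⟩
  simp only [ch1, ch2, withL_eq, Spor.force_eq] at h2 h4
  obtain ⟨a1, a2⟩ := chB_sound hR k1 hn (S := {y | ∃ a ∈ Y, y = a * xc * a⁻¹})
    (Q := fun x => ∃ v ∈ B, ∃ j < d.rs.length,
      x * (v * nth 1 (d.rs.map (nth 1 e)) j) = v * nth 1 (d.rs.map (nth 1 e)) j * xc) hc ⟨1, one_mem _, by group⟩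
    (by
      rintro i hi a _ ⟨y, h5, rfl⟩ h6
      have h7 := (repL_sel hR d.ys).nth i
      have h8 := (repL_sel hR d.yi).nth i
      rw [eq_inv_of_mul_eq_one_right (((h7.mul h8).eq_iff Cod.rep_one).1 (b3 i hi))] at h8
      refine ⟨_, ⟨_ * y, mul_mem (nth_mem (hY d.ys (by simp +contextual)) i) h5, by group⟩, (h7.mul h6).mul h8,
        fun h9 h10 h11 => ?_⟩
      have h12 := preB_sound (repL_sel hR _) (repL_sel hR _) b4 h9
      obtain ⟨v, h13, j, h14, h15⟩ := h10 (by
        simpa only [mul_assoc, inv_mul_cancel, mul_one, inv_mul_cancel_left] using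
          mul_mem (mul_mem (inv_mem (hBM h12)) h11) (hBM h12))
      exact ⟨_, mul_mem h12 h13, j, h14, by simp only [mul_assoc, inv_mul_cancel_left] at h15 ⊢; rw [h15]⟩)
    (fun K eK h5 h6 a x k h7 h8 => by
      rw [band_iff, blt_iff, nbeq_iff] at h8
      obtain ⟨v, c4, c5⟩ := rep_tw h5 h6 Cod.rep_one (one_mem _) (Nat.land (Nat.shiftRight k 2) 0xffffff)
      have c6 := c5.mul ((repL_sel hR d.rs).nth (Nat.land k 3))
      exact ⟨v, c4, _, h8.1, ((h7.mul c6).eq_iff (c6.mul hc)).1 h8.2⟩) h2 h3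
  have key : ∀ j < d.rs.length, β ≤ Nat.card ↥(Y ⊓ centralizer {xc}) ∧ (Nat.card ↥(Y ⊓ centralizer {xc}) ≤ β →
      ∀ x ∈ Y ⊓ centralizer {xc}, nth 1 (d.rs.map (nth 1 e)) j * x ∈ M → nth 1 (d.rs.map (nth 1 e)) j * x ∈ B) := by
    intro j hj
    obtain ⟨L, h5, h6⟩ := h4 j hj
    have h7 := chB_sound hR k1 hn (S := (nth 1 (d.rs.map (nth 1 e)) j * ·) '' (Y ⊓ centralizer {xc} : Subgroup G))
      (Q := (· ∈ B)) ((repL_sel hR d.rs).nth j) ⟨1, one_mem _, mul_one _⟩
      (by
        rintro i - a _ ⟨x, h7, rfl⟩ h8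
        refine ⟨_, ⟨_, mul_mem h7 (nth_mem hC i), (mul_assoc _ _ _).symm⟩, h8.mul ((repL_sel hR d.bs).nth i),
          fun h9 h10 h11 => ?_⟩
        have h12 := preB_sound (repL_sel hR _) (repL_sel hR _) b5 h9
        exact mul_mem (h10 ((mul_mem_cancel_right (hBM h12)).1 h11)) h12)
      (fun K eK h5 h6 a x k h7 h8 => by
        obtain ⟨v, c4, c5⟩ := rep_tw h5 h6 Cod.rep_one (one_mem _) (Nat.land k 0xffffff)
        exact (h7.eq_iff c5).1 ((nbeq_iff _ _).1 h8) ▸ c4) h5 h6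
    rw [Set.ncard_image_of_injective _ (mul_right_injective _), ← Nat.card_coe_set_eq, SetLike.coe_sort_coe] at h7
    exact ⟨h7.1, fun h x hx => h7.2 h _ ⟨x, hx, rfl⟩⟩
  have h5 := ncard_cls_mul Y xc
  have h6 : 0 < Nat.card Y := Nat.card_pos
  have h8 : 0 < {y | ∃ a ∈ Y, y = a * xc * a⁻¹}.ncard := Nat.pos_of_mul_pos_right (h5 ▸ h6)
  obtain ⟨v, c1, j, c2, c3⟩ := a2 (Nat.le_of_mul_le_mul_right ((h5 ▸ k4).trans (Nat.mul_le_mul_left n (key 0 k5).1))
    Nat.card_pos) _ ⟨y, y2, rfl⟩ (mul_mem (mul_mem y1 k3) (inv_mem y1))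
  have c4 := (key j c2).2 (Nat.le_of_mul_le_mul_left ((h5 ▸ k4).trans (Nat.mul_le_mul_right β a1)) h8)
    ((v * nth 1 (d.rs.map (nth 1 e)) j)⁻¹ * y) (mem_inf.2 ⟨mul_mem (inv_mem (mul_mem (hBY c1)
      (nth_mem (hY d.rs (by simp +contextual)) _))) y2, mem_cen.2 (by
        rw [mul_assoc, inv_mul_eq_iff_eq_mul, ← mul_assoc, ← mul_assoc, ← c3]; group)⟩)
  rw [show nth 1 (d.rs.map (nth 1 e)) j * ((v * nth 1 (d.rs.map (nth 1 e)) j)⁻¹ * y) = v⁻¹ * y by group] at c4
  exact (mul_mem_cancel_left (inv_mem c1)).1 (c4 (mul_mem (inv_mem (hBM c1)) y1))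

/-- What a certificate proves. -/
def Res (f : List ℕ → G) (d : Dat) (eqs nes : List (List ℕ × List ℕ)) (N : ℕ) : Prop :=
  ∃ a : ℕ → G, (∀ w, lettersLt 15 w = true → evalW a w = f w) ∧ (∀ p ∈ eqs, evalW a p.1 = evalW a p.2) ∧
    (∀ p ∈ nes, evalW a p.1 ≠ evalW a p.2) ∧ ∀ M : Subgroup G, (∀ i ∈ d.hs, a i ∈ M) → (∀ i ∈ d.ks, a i ∈ M) →
      a d.c ∈ M → Nat.card (normalizer (zpowers (a d.s) : Set G)) ≤ N →
      (∀ p ∈ d.ps, p.Prime → p ∣ Nat.card M) ∨ M ⊓ normalizer (zpowers (a d.s) : Set G) ≤ clos (d.ks.map a)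

end Cov

open Cov

theorem StJ.max_sound {G : Type*} [Group G] [Finite G] {z : G} {g l : ℕ → G} {π : centralizer ({z} : Set G) →* PG}
    {ψ : M24 →* G} (S : StJ z π g l ψ) {d : Dat} {prog : List (List ℕ)} {regs : List ℕ} (h0 : prgB d prog regs = true)
    {eqs nes : List (List ℕ × List ℕ)} (h1 : basB d eqs nes = true) {n β : ℕ} {L : List (List ℕ)}
    (h2 : ∀ ks ∈ L, ∃ fuel cert s, ch1 d fuel cert s ks = true) (h3 : distinct (fun x => x) n L.flatten = true)
    (h4 : ∀ j < d.rs.length, ∃ L : List (List ℕ), (∀ ks ∈ L, ∃ fuel cert s, ch2 d j fuel cert s ks = true) ∧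
      distinct (fun x => x) β L.flatten = true) (h5 : 0 < d.rs.length) : Res (eW z g l ψ) d eqs nes (n * β) := by
  obtain ⟨C, hC⟩ := S.exists_cod
  obtain ⟨R, e, k1, -, k2⟩ := runL_sound hC h0
  have k3 : C.RepL d.R (eL z g l ψ ++ regs.map (nth 1 (eL z g l ψ ++ e))) := by
    rw [Dat.R, appL_eq, ← Spor.eq_of_beqL k2]
    exact hC.append (repL_sel k1 regs)
  have k4 := h1
  simp only [basB, withL_eq, Spor.force_eq, band_iff] at k4
  exact ⟨_, fun w hw => evalW_congr fun i hi => nth_append ((blt_iff _ _).1 ((Spor.allL_iff _ _).1 hw i hi)),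
    (chkE_sound k3 k4.1).1, (chkE_sound k3 k4.1).2, fun M m1 m2 m3 m4 => cover k3 h1 h2 h3 h4 m1 m2 m3 m4 h5⟩

end Cfsg.Agent.J4T
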