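import Mathlib
import Cfsg.Agent.J4T.Loc3
import Cfsg.Agent.Fus.EssSmall

/-!
Centralisers and normalisers of the subgroups of orders 3, 5 and 7, and the Sylow 3-subgroups.
-/

set_option autoImplicit false

namespace Cfsg.Agent.J4T

open Cfsg.Agent.Spor Cfsg.Agent.Spor.MB Cfsg.Agent.Spor.J4C Subgroup Cfsg.Agent.Inv.Fz

variable {G : Type*} [Group G]

namespace Lc

/-- An element of order three with six fixed points. -/
def c3a : ℕ := 973135677726956088204887272529806386

/-- An element of order three without fixed points. -/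
def c3b : ℕ := 564193423845897253060685360549545591

/-- The elements of a Sylow 3-subgroup. -/
def R3L : List ℕ := [444819348656633420387626907106515684, 761266074274825707658675076121234451, 13575337213068893782880517042349197, 67079536899492460505427350294936896, 168047040414211780593178151935361613, 914674016279665708996546006317369783, 795250475358443292157475383042940631, 564193423845897253060685360549545591, 433136821605702865298110920459167456, 778141406555315976191769694814028813, 30450655329633153530666641779689622, 70973980054862854328831540486975826, 179728833177729530059112474916395606, 919865589176298530771309483068463530, 813423662130468579023458287908032202, 540828631699144797840778081053582954, 440924893146192275378172892205813490, 749584284746922352744265148567629846, 1893529918942814150569964010519699, 59291425967817486997287334362300740, 196604147408843999485946212622048851, 938038813475912441146286776663650721, 790058907794457821700905652651081409,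 546020242773201638893963938139030113, 980923761339363175082638813476199460, 973135677726956088204887272529806386, 984818244535754528103549039458486304]

theorem gens_R3 : Gens M24 [c3a, c3b] := gens_M24 (by decide +kernel)

theorem list_R3 : listGrp [c3a, c3b] 27 48 0x212000220112000002120002201120000021200022011211 = true := by
  decide +kernel

theorem mem_R3 {x : PG} : x ∈ clo [c3a, c3b] ↔ code x ∈ R3L := by
  rw [← show walk mul [c3a, c3b] idc 48 0x212000220112000002120002201120000021200022011211 = R3L by decide +kernel]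
  refine ⟨mem_walk_of_listGrp list_R3 x, fun h => ?_⟩
  obtain ⟨y, hy, e⟩ := gens_R3.clo.walk _ _ _ h
  exact code_injective e ▸ hy

theorem R3_ok : ∀ c ∈ R3L, pw c 3 = idc ∧ Split.va c 1024 = 1024 ∧ comm c cp = true ∧
    (comm c c3a = true → comm c c3b = true → ∃ i < 3, pw cp i = c) := by decide +kernel

theorem el_mem_R3 {c : ℕ} (h : inM24 c = true) (hc : c ∈ R3L) : (el c h : PG) ∈ clo [c3a, c3b] :=
  mem_R3.2 (by rwa [code_el])

theorem orderOf_el {c : ℕ} (h : inM24 c = true) (hc : c ∈ R3L) (h1 : c ≠ idc) : orderOf (el c h : PG) = 3 :=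
  orderOf_of_code (by rw [code_el]; exact (R3_ok c hc).1) (by rwa [code_el])

theorem cent_R3 {x : PG} (hx : x ∈ clo [c3a, c3b]) (h : ∀ y ∈ clo [c3a, c3b], x * y = y * x) :
    x ∈ zpowers (el cp : PG) := by
  obtain ⟨i, -, e⟩ := (R3_ok _ (mem_R3.1 hx)).2.2.2
    (by rw [← code_el c3a (by decide +kernel), comm_iff]; exact h _ (el_mem_R3 _ (by decide +kernel)))
    (by rw [← code_el c3b (by decide +kernel), comm_iff]; exact h _ (el_mem_R3 _ (by decide +kernel)))
  rw [← code_el cp (by decide +kernel), ← code_pow] at e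
  exact code_injective e ▸ npow_mem_zpowers _ i

theorem comm_cp {x : PG} (hx : x ∈ clo [c3a, c3b]) : x * (el cp : PG) = el cp * x := by
  rw [← comm_iff, code_el]; exact (R3_ok _ (mem_R3.1 hx)).2.2.1

theorem card_NZ_cp : Nat.card (NZ (el cp : PG)) ≤ 2160 := by
  obtain ⟨k, hk, e⟩ := conj_tA_of_card (el cp).2 (orderOf_el _ (by decide +kernel) (by decide +kernel))
    (by rw [fixSet_eq (m := 3164448) (by rw [code_el]; decide +kernel)]; decide +kernel)
  have h := (card_le_of_le (H := CZ tA) (K := MT.Cen tA []) fun g hg =>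
    MT.mem_Cen.2 ⟨⟨hg.1, by simp⟩, (mem_CZ.1 hg).2⟩).trans MT.card_Cen_tA
  rw [← e, card_NZ_conj hk]
  refine (card_norm_le M24 fun e => by simpa [e] using orderOf_tA).trans ?_
  rw [orderOf_tA]
  exact (Nat.mul_le_mul_left _ h).trans (by norm_num)

theorem card_norm_R3 : Nat.card ↥(M24 ⊓ normalizer (clo [c3a, c3b] : Set PG)) = 216 := by
  rw [(bsgs_enumC ptD (gs := [9664948860973406573189232699065494, 634971754315701612532407772978972864,
    958844717248964307133962771239655456, 437018865742647469453039798766257184])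
    (gens_NZ (code_el cp (by decide +kernel)) 3 (by decide +kernel)) [(0, 31, 0x4403003001120040013001200401111),
      (1, 23, 0x31201300030201300032121), (2, 12, 0x201200020121)] 2160 (by decide +kernel) card_NZ_cp).card_sub
    (fun d => band (Spor.force (MB.cj d c3a) (memL R3L)) (Spor.force (MB.cj d c3b) (memL R3L))) fun g => ?_]
  · decide +kernel
  rw [band_iff, Spor.force_eq, Spor.force_eq, memL_iff, memL_iff, ← code_el c3a (by decide +kernel), ← code_conj, ← mem_R3,
    code_el, ← code_el c3b (by decide +kernel), ← code_conj, code_el, ← mem_R3]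
  refine ⟨fun h => ⟨mem_NZ.2 ⟨h.1, cent_R3 (Rec.conj_mem_of_mem_norm h.2 (el_mem_R3 _ (by decide +kernel)))
    fun y hy => ?_⟩, Rec.conj_mem_of_mem_norm h.2 (el_mem_R3 _ (by decide +kernel)),
    Rec.conj_mem_of_mem_norm h.2 (el_mem_R3 _ (by decide +kernel))⟩, fun h => ⟨h.1.1, mem_normalizer_of_conj_mem
      ((closure_le ((clo [c3a, c3b]).comap (MulAut.conj g).toMonoidHom)).2 fun y hy => ?_)⟩⟩
  · have h1 := comm_cp (Rec.conj_mem_of_mem_norm (inv_mem h.2) hy)
    calc _ = g * ((el cp : PG) * (g⁻¹ * y * g⁻¹⁻¹)) * g⁻¹ := by group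
      _ = _ := by rw [← h1]; group
  · rcases List.mem_pair.1 hy with e | e
    · exact (code_injective (e.trans (code_el c3a (by decide +kernel)).symm) ▸ h.2.1 :)
    · exact (code_injective (e.trans (code_el c3b (by decide +kernel)).symm) ▸ h.2.2 :)

theorem isConj_psi (ψ : M24 →* G) {x y : M24} (h : ∃ k ∈ M24, k * (x : PG) * k⁻¹ = y) : IsConj (ψ x) (ψ y) := by
  obtain ⟨k, hk, e⟩ := h
  exact ψ.map_isConj (isConj_iff.2 ⟨⟨k, hk⟩, Subtype.ext e⟩)

end Lc

open Lc

/-- A Sylow 3-subgroup. -/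
def R3 (ψ : M24 →* G) : Subgroup G := pim ψ (clo [c3a, c3b])

theorem psi_mem_R3 (ψ : M24 →* G) {c : ℕ} (h : inM24 c = true) (hc : c ∈ R3L) : ψ (el c h) ∈ R3 ψ :=
  ⟨el c h, el_mem_R3 h hc, rfl⟩

namespace StM

variable [Finite G] {z : G} {g l : ℕ → G} {π : centralizer ({z} : Set G) →* PG} {ψ : M24 →* G}
  (s : StM z π g l ψ)

include s

omit [Finite G] in
theorem word_psi {w : List ℕ} {c : ℕ} (hc : inM24 c = true) (h : band (lettersLt 6 w) (Nat.beq (evC sL w) c) = true) :
    evalW l w = ψ (el c hc) := by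
  rw [band_iff, nbeq_iff] at h
  rw [psi_el, ← h.2, (Split.valN_evC ψ Split.sL_ok h.1).2]
  exact evalW_congr_mem fun i hi => s.sl i ((lettersLt_iff _ _).1 h.1 i hi)

omit [Finite G] in
theorem card_R3 : Nat.card (R3 ψ) = 3 ^ 3 := by
  rw [R3, s.card_pim gens_R3.clo_le, card_clo_of_listGrp gens_R3 list_R3]; norm_num

theorem R3_le : R3 ψ ≤ centralizer {z} := by
  rintro _ ⟨y, hy, rfl⟩
  exact Rec.mem_cen.2 ((s.comm_z_iff y).2 (R3_ok _ (mem_R3.1 hy)).2.1)

omit [Finite G] s in
theorem R3_cube : ∀ x ∈ R3 ψ, x ^ 3 = 1 := by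
  rintro _ ⟨y, hy, rfl⟩
  rw [← map_pow, ← map_one ψ]
  exact congrArg ψ (Subtype.ext (eq_one_iff_code.2 ((code_pow _ _).trans (R3_ok _ (mem_R3.1 hy)).1)))

theorem norm_R3_le : normalizer (R3 ψ : Set G) ≤ normalizer (zpowers (l 0) : Set G) := fun n hn => by
  have h0 : l 0 ∈ R3 ψ := by rw [s.l0_eq]; exact psi_mem_R3 ψ _ (by decide +kernel)
  obtain ⟨y, hy, e⟩ := Rec.conj_mem_of_mem_norm hn h0
  rw [mem_normalizer_zpowers_iff, ← e, s.l0_eq, ← pim_zpowers]
  refine ⟨y, cent_R3 hy fun x hx => ?_, rfl⟩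
  obtain ⟨w, hw, e1⟩ := Rec.conj_mem_of_mem_norm (inv_mem hn) (⟨⟨x, gens_R3.clo_le hx⟩, hx, rfl⟩ : ψ _ ∈ R3 ψ)
  have h1 : ψ w * l 0 = l 0 * ψ w := by
    rw [s.l0_eq, ← map_mul, ← map_mul]; exact congrArg ψ (Subtype.ext (comm_cp hw))
  refine congrArg Subtype.val (s.psi_inj (a₁ := y * ⟨x, gens_R3.clo_le hx⟩) (a₂ := ⟨x, gens_R3.clo_le hx⟩ * y) ?_)
  rw [map_mul, map_mul, e]
  calc _ = n * (l 0 * (n⁻¹ * ψ ⟨x, gens_R3.clo_le hx⟩ * n⁻¹⁻¹)) * n⁻¹ := by group
    _ = _ := by rw [← e1, ← h1, e1]; group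

theorem card_MN_R3 : Nat.card ↥(normalizer (VG z g l : Set G) ⊓ normalizer (R3 ψ : Set G)) = 432 := by
  rw [R3, s.card_norm gens_R3.clo_le, card_norm_R3, s.card_of_list (L := [0, 1024]) (by decide) fun v => ⟨?_, ?_⟩]
  · rfl
  · rintro ⟨h1, h2⟩
    obtain ⟨a, ha, rfl⟩ := s.o.x.mem_VG.1 h1
    have k : ∀ c h, c ∈ R3L → Split.va c a = a := fun c h hc => by
      have k := (s.psi_comm_iff (el c h) ha).1 (mem_centralizer_iff.1 h2 _ ⟨_, el_mem_R3 h hc, rfl⟩)
      rwa [code_el] at k
    have k1 := allRange_zero (len := 2048) (f := fun a => bor (!Nat.beq (Split.va c3a a) a)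
      (bor (!Nat.beq (Split.va c3b a) a) (memL [0, 1024] a))) (by decide +kernel) a ha
    rw [k c3a (by decide +kernel) (by decide +kernel), k c3b (by decide +kernel) (by decide +kernel)] at k1
    exact ⟨a, by simpa [bor_iff, memL_iff] using k1, rfl⟩
  · rintro ⟨a, ha, rfl⟩
    refine ⟨s.vv_mem a, ?_⟩
    rcases List.mem_pair.1 ha with rfl | rfl
    · rw [s.o.x.vv_zero]; exact one_mem _
    · rw [s.o.x.vv_z]; exact mem_centralizer_iff.2 fun y hy => Rec.mem_cen.1 (s.R3_le hy)

theorem conj_ab : IsConj (ψ (el c3a)) (ψ (el c3b)) := by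
  have h := VB.eq_or s.o.x (v := [1, 2, 8, 10, 2, 3, 9, 10, 6] ++ [1, 2]) (w := [1, 2, 5, 4] ++ [1, 2, 8, 10, 2, 3, 9, 10, 6])
    (by decide +kernel)
  have a1 : ψ (el c3a) ∈ R3 ψ := psi_mem_R3 ψ _ (by decide +kernel)
  have a2 : ψ (el c3b) ∈ R3 ψ := psi_mem_R3 ψ _ (by decide +kernel)
  rw [evalW_append, evalW_append, s.word_psi (w := [1, 2]) (c := c3a) (by decide +kernel) (by decide +kernel),
    s.word_psi (w := [1, 2, 5, 4]) (c := c3b) (by decide +kernel) (by decide +kernel)] at h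
  generalize evalW l [1, 2, 8, 10, 2, 3, 9, 10, 6] = k at h
  refine isConj_iff.2 ⟨k, mul_inv_eq_iff_eq_mul.2 (h.resolve_right fun e => ?_).symm⟩
  exact VB.ne_of_cube (y := k⁻¹) s.z_ne s.o.x.q.z_sq (R3_cube _ a2) (R3_cube _ a1) (Rec.mem_cen.1 (s.R3_le a1))
    (by rw [inv_inv, mul_assoc, e]; group)

end StM

namespace StJ

variable [Finite G] {z : G} {g l : ℕ → G} {π : centralizer ({z} : Set G) →* PG} {ψ : M24 →* G} (s : StJ z π g l ψ)

include s

theorem syl_R3 {K : Subgroup G} (h : R3 ψ ≤ K) : IsSylIn 3 (R3 ψ) K := by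
  have h1 : IsSylIn 3 (R3 ψ) ⊤ := Rec.isSylIn_of_card le_top s.t.m.card_R3 (m := 3213910038743613440)
    (by rw [card_top, s.card]; norm_num) (by norm_num)
  exact ⟨h, h1.2.1, fun Q hQ _ => h1.2.2 Q hQ le_top⟩

theorem isConj_three {x y : G} (hx : orderOf x = 3) (hy : orderOf y = 3) : IsConj x y := by
  have h1 := isConj_psi ψ (x := ⟨tA, tA_mem⟩) (conj_tA_of_card (el c3a).2
    (orderOf_el _ (by decide +kernel) (by decide +kernel))
    (by rw [fixSet_eq (m := 11551746) (by rw [code_el]; decide +kernel)]; decide +kernel))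
  have h2 := isConj_psi ψ (x := ⟨tB, tB_mem⟩) (conj_tB_of_card (el c3b).2
    (orderOf_el _ (by decide +kernel) (by decide +kernel))
    (by rw [fixSet_eq (m := 0) (by rw [code_el]; decide +kernel)]; decide +kernel))
  have key : ∀ x : G, orderOf x = 3 → IsConj x (ψ (el c3a)) := fun x hx => by
    obtain ⟨k, -, w, -, e⟩ := Rec.exists_conj_mem_syl (s.syl_R3 le_top) (mem_top x) (k := 1)
      (by rw [pow_one, ← hx, pow_orderOf_eq_one])
    refine (isConj_iff.2 ⟨k, e.symm⟩).trans ?_
    rcases three_classes w.2 (by rw [← s.t.m.orderOf_psi, e, orderOf_conj', hx]) with h | h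
    · exact (isConj_psi ψ (x := ⟨tA, tA_mem⟩) h).symm.trans h1
    · exact ((isConj_psi ψ (x := ⟨tB, tB_mem⟩) h).symm.trans h2).trans s.t.m.conj_ab.symm
  exact (key x hx).trans (key y hy).symm

theorem card_cent3 {x : G} (hx : orderOf x = 3) : Nat.card (centralizer ({x} : Set G)) = 2661120 := by
  rw [Rec.Syl.card_centralizer_conj (s.isConj_three hx s.x.st.p3), s.cent_p, s.x.card_KK]

theorem card_cent5 {x : G} (hx : orderOf x = 5) : Nat.card (centralizer ({x} : Set G)) = 6720 :=
  cent_zpowers x ▸ (s.loc_five (by rw [Nat.card_zpowers, hx])).2.2.2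

theorem card_norm5 {x : G} (hx : orderOf x = 5) : Nat.card (normalizer (zpowers x : Set G)) = 26880 :=
  (s.loc_five (by rw [Nat.card_zpowers, hx])).2.2.1

theorem card_cent7 {x : G} (hx : orderOf x = 7) : Nat.card (centralizer ({x} : Set G)) = 840 :=
  cent_zpowers x ▸ (s.loc_seven (by rw [Nat.card_zpowers, hx])).2

theorem card_norm7 {x : G} (hx : orderOf x = 7) : Nat.card (normalizer (zpowers x : Set G)) = 2520 :=
  s.norm_seven (by rw [Nat.card_zpowers, hx])

theorem card_norm_R3 : Nat.card (normalizer (R3 ψ : Set G)) = 864 := by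
  have : Fact (Nat.Prime 5) := ⟨by norm_num⟩
  have h1 := s.t.m.card_R3
  obtain ⟨f, h4, h5⟩ := s.card_norm_eq (s.syl_R3 (s.t.m.pim_le _)) s.t.m.card_MN_R3
  have h6 : ∀ i < 7, i ≠ 0 → i ≠ 2 → f i = 0 := fun i hi h0 h2 => (h5 i hi).2.resolve_right fun h => by
    rw [h1] at h
    interval_cases i <;> first | exact absurd h.1 (by decide) | omega
  have h7 := card_subgroup_dvd_card (normalizer (R3 ψ : Set G))
  have h8 : ¬ 5 ∣ Nat.card (normalizer (R3 ψ : Set G)) := fun h => by
    obtain ⟨u, hu⟩ := exists_prime_orderOf_dvd_card' 5 h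
    rw [← orderOf_coe] at hu
    have a1 := Fm.card_modEq (L := R3 ψ) (x := u) (r := 5) (by norm_num) (hu ▸ pow_orderOf_eq_one _)
      fun q => Rec.conj_mem_of_mem_norm u.2
    have a2 := Nat.dvd_gcd (card_dvd_of_le (inf_le_left : R3 ψ ⊓ centralizer (zpowers (u : G) : Set G) ≤ _))
      (card_dvd_of_le inf_le_right)
    rw [h1, cent_zpowers, s.card_cent5 hu] at a2
    rw [h1, cent_zpowers] at a1
    rcases (Nat.dvd_prime Nat.prime_three).1 a2 with e | e <;> rw [e] at a1 <;> exact absurd a1 (by decide)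
  rw [h6 1, h6 3, h6 4, h6 5, h6 6] at h4 <;> try norm_num
  obtain ⟨h9, h10 | h10⟩ := h5 2 (by norm_num)
  · rw [h10] at h9; exact absurd h9 (by decide)
  rw [h4, s.card] at h7
  rw [h4] at h8
  rw [h1] at h10
  have key : ∀ d < 17, d % 3 = orbL 2 % 3 ∧ d * 3 ^ 3 ∣ 432 ∧ (1 + d) * 432 ∣ 86775571046077562880 ∧
      ¬ 5 ∣ (1 + d) * 432 → (1 + d) * 432 = 864 := by decide +kernel
  exact h4.trans (key _ (by have := Nat.le_of_dvd (by norm_num) h10.2; omega) ⟨h9, h10.2, h7, h8⟩)

theorem sylow_three {R : Subgroup G} (hR : IsSylIn 3 R (centralizer {z})) :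
    Cfsg.IsExtraspecial 3 R ∧ Nat.card R = 27 ∧ Monoid.exponent R = 3 ∧
      normalizer (R : Set G) ≤ centralizer {z} ∧ Nat.card (normalizer (R : Set G)) = 864 := by
  obtain ⟨c, hc, rfl⟩ := hR.exists_cj_eq (s.syl_R3 s.t.m.R3_le)
  have h1 : Nat.card (cj c (R3 ψ)) = 3 ^ 3 := by rw [card_cj, s.t.m.card_R3]
  have a1 : ψ (el c3a) ∈ R3 ψ := psi_mem_R3 ψ _ (by decide +kernel)
  have a2 : ψ (el c3b) ∈ R3 ψ := psi_mem_R3 ψ _ (by decide +kernel)
  have : Nontrivial (cj c (R3 ψ)) := Finite.one_lt_card_iff_nontrivial.1 (by rw [h1]; norm_num)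
  refine ⟨Fus.isExtraspecial_of_card_cube h1 fun h => ?_, h1, (Monoid.exponent_eq_prime_iff Nat.prime_three).2
    fun x hx => orderOf_eq_prime (Subtype.ext ?_) hx, ?_, by rw [← cj_normalizer, card_cj, s.card_norm_R3]⟩
  · have h2 := h.1.1 (cjEquiv c _ ⟨_, a1⟩) (cjEquiv c _ ⟨_, a2⟩)
    rw [← map_mul, ← map_mul] at h2
    have h3 : ψ (el c3a * el c3b) = ψ (el c3b * el c3a) := by
      rw [map_mul, map_mul]; exact congrArg Subtype.val ((cjEquiv c _).injective h2)
    have h4 := comm_iff.2 (congrArg Subtype.val (s.t.m.psi_inj h3))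
    rw [code_el, code_el] at h4
    exact absurd h4 (by decide +kernel)
  · have h2 := StM.R3_cube _ (mem_cj.1 x.2)
    rw [show c⁻¹ * x * c = c⁻¹ * x * c⁻¹⁻¹ by rw [inv_inv], conj_pow] at h2
    exact Rec.conj_eq_one.1 h2
  · rw [← cj_normalizer]
    exact (cj_mono (s.t.m.norm_R3_le.trans s.norm_p_le)).trans (cj_eq_iff.2 (le_normalizer hc)).le

end StJ

end Cfsg.Agent.J4T
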