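import Mathlib
import Cfsg.Agent.J4T.TenB
import Cfsg.Agent.J4T.TenC

/-!
Self-centralising elementary abelian subgroups of order `2 ^ 10` are conjugate.
-/

set_option autoImplicit false
set_option linter.unusedSectionVars false

namespace Cfsg.Agent.J4T

open Cfsg.Agent.Spor Cfsg.Agent.Spor.MB Cfsg.Agent.Spor.J4C Cfsg.Agent.Inv.Fz Subgroup Split Ten

variable {G : Type*} [Group G]

/-- A self-centralising elementary abelian subgroup of order `2 ^ 10`. -/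
structure Good (A : Subgroup G) : Prop where
  elem : Cfsg.IsElementaryAbelian 2 A
  card : Nat.card A = 2 ^ 10
  cent : centralizer (A : Set G) = A

namespace Good

variable {A : Subgroup G} (h : Good A)

include h

theorem sq {a : G} (ha : a ∈ A) : a * a = 1 := _root_.sq a ▸ h.elem.2 a ha

theorem comm {a b : G} (ha : a ∈ A) (hb : b ∈ A) : a * b = b * a := h.cent.ge hb a ha

theorem mem {n : G} (hn : ∀ a ∈ A, a * n = n * a) : n ∈ A := h.cent.le hn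

theorem cj (c : G) : Good (cj c A) := by
  refine ⟨⟨⟨⟨fun a b => Subtype.ext ?_⟩⟩, fun a ha => ?_⟩, (card_cj c A).trans h.card, by rw [← cj_centralizer, h.cent]⟩
  · have k := h.comm (Inv.Fz.mem_cj.1 a.2) (Inv.Fz.mem_cj.1 b.2)
    have e : ∀ x y : G, c⁻¹ * x * c * (c⁻¹ * y * c) = c⁻¹ * (x * y) * c := fun x y => by group
    rwa [e, e, mul_left_inj, mul_right_inj] at k
  · have k := h.sq (Inv.Fz.mem_cj.1 ha)
    rw [show c⁻¹ * a * c * (c⁻¹ * a * c) = c⁻¹ * a ^ 2 * c⁻¹⁻¹ by rw [_root_.sq]; group] at k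
    exact Rec.conj_eq_one.1 k

theorem pg : IsPGroup 2 A := IsPGroup.of_card h.card

end Good

namespace StM

variable [Finite G] {z : G} {g l : ℕ → G} {π : centralizer ({z} : Set G) →* PG} {ψ : M24 →* G} (s : StM z π g l ψ)
  {A : Subgroup G} (hA : Good A) (hN : A ≤ normalizer (VG z g l : Set G))

include s

theorem exists_eE {y : PG} (h : y ∈ Golay.Fix O0) : ∃ i < 16, eE i = code y := by
  obtain ⟨j, hj, e⟩ := s.mem_AG.1 (s.psi_mem_AG (y := ⟨y, (Golay.mem_Fix.1 h).1⟩) h)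
  have h1 := eE_ok _ (s6_ok j hj).2.1
  rw [s.av_eq, valN_toPerm ψ h1.1, ← one_mul (ψ ⟨y, _⟩), ← s.o.x.vv_zero] at e
  exact ⟨_, (s6_ok j hj).2.1, (code_toPerm' h1.1).symm.trans
    (congrArg (fun y : M24 => code y) (s.vv_psi_inj (s6_lt j) (by norm_num) e).2)⟩

theorem lift_cj (k : M24) {a : ℕ} (ha : a < 2048) {y : M24} (h : vv z g l a * ψ y ∈ A) {y' : M24}
    (e : (k : PG) * y * (k : PG)⁻¹ = y') : ∃ b < 2048, vv z g l b * ψ y' ∈ cj (ψ k) A := by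
  refine ⟨va (code k) a, va_lt _ _, ?_⟩
  rw [← (Subtype.ext e : k * y * k⁻¹ = y'), ← s.conj_vv k ha, map_mul, map_mul, map_inv, Inv.Fz.mem_cj]
  convert h using 1
  group

theorem card_cj_inf (k : M24) : Nat.card ↥(cj (ψ k) A ⊓ VG z g l) = Nat.card ↥(A ⊓ VG z g l) := by
  conv_lhs => rw [← cj_eq_iff.2 (s.psi_mem k), ← cj_inf, card_cj]

include hA

theorem lift_sq {x : ℕ} (hx : x < 2048) {y : M24} (h : vv z g l x * ψ y ∈ A) : va (code y) x = x ∧ y * y = 1 := by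
  have k := hA.sq h
  rw [s.mul_N x y hx] at k
  have k1 := s.vv_psi_inj (xor_lt hx (va_lt _ _)) (x' := 0) (by norm_num) (y' := 1)
    (by rw [k, s.o.x.vv_zero, map_one, mul_one])
  exact ⟨(Nat.eq_of_xor_eq_zero k1.1).symm, k1.2⟩

theorem lift_comm {a b : ℕ} (ha : a < 2048) (hb : b < 2048) {y y' : M24} (h : vv z g l a * ψ y ∈ A)
    (h' : vv z g l b * ψ y' ∈ A) : a ^^^ va (code y) b = b ^^^ va (code y') a ∧ y * y' = y' * y := by
  have k := hA.comm h h'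
  rw [s.mul_N a y hb, s.mul_N b y' ha] at k
  exact s.vv_psi_inj (xor_lt ha (va_lt _ _)) (xor_lt hb (va_lt _ _)) k

theorem fix_of_mem {x a : ℕ} (hx : x < 2048) (h : vv z g l x ∈ A) {y : M24} (h' : vv z g l a * ψ y ∈ A) :
    va (code y) x = x := (s.comm_vv_iff a y hx).1 (hA.comm h' h)

include hN

theorem mem_of_fix {x : ℕ} (hx : x < 2048) (h : ∀ a < 2048, ∀ y : M24, vv z g l a * ψ y ∈ A → va (code y) x = x) :
    vv z g l x ∈ A := hA.mem fun n hn => by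
  obtain ⟨a, ha, y, rfl⟩ := s.mem_N.1 (hN hn)
  exact (s.comm_vv_iff a y hx).2 (h a ha y hn)

theorem exists_zA : ∃ k : M24, ∃ a < 2048, vv z g l a * ψ ⟨zA, zA_mem⟩ ∈ cj (ψ k) A := by
  obtain ⟨F, h1, h2, h3⟩ := s.exists_img hN
  by_contra hc
  have h4 : ∀ f ∈ F, f ≠ 1 → orderOf f = 2 ∧ (fixSet f).card = 0 := fun f hf hne => by
    obtain ⟨a, ha, k⟩ := (h2 ⟨f, h1 hf⟩).1 hf
    have o : orderOf f = 2 := orderOf_eq_prime (by
      rw [sq]; exact congrArg Subtype.val (s.lift_sq hA ha k).2) hne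
    refine ⟨o, by_contra fun e => ?_⟩
    obtain ⟨c, hc1, rfl⟩ := conj_zA_of_card (h1 hf) o e
    exact hc ⟨⟨c, hc1⟩⁻¹, s.lift_cj ⟨c, hc1⟩⁻¹ ha k (by simp [mul_assoc])⟩
  have h5 : Nat.card F ∣ 24 := by
    have e := Nat.card_congr (MulAction.selfEquivOrbitsQuotientProd (G := F) (X := GolayPt) fun p =>
      eq_bot_iff.2 fun f hf => by
        by_contra k
        have k1 := (h4 f f.2 fun e => k (Subtype.ext e)).2
        exact absurd (mem_fixSet.2 hf) (by rw [Finset.card_eq_zero.1 k1]; simp))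
    rw [Nat.card_prod, Nat.card_eq_fintype_card, card_golayPt] at e
    exact Dvd.intro_left _ e.symm
  have h6 : Nat.card F ≤ 8 :=
    Nat.le_of_dvd (by norm_num) (Nat.dvd_gcd h5 (hA.card ▸ Dvd.intro_left _ h3.symm : _ ∣ 2 ^ 10))
  rcases F.bot_or_exists_ne_one with e | ⟨f, hf, hne⟩
  · have k : VG z g l ≤ A := fun v hv => by
      obtain ⟨x, hx, rfl⟩ := s.o.x.mem_VG.1 hv
      refine s.mem_of_fix hA hN hx fun a ha y hy => ?_
      have k1 : y = 1 := Subtype.ext (mem_bot.1 (e ▸ (h2 y).2 ⟨a, ha, hy⟩))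
      rw [← s.comm_vv_iff 0 y hx, k1, map_one, mul_one, s.vv_comm]
    have k1 := card_le_of_le k
    rw [s.o.x.card_V, hA.card] at k1
    omega
  obtain ⟨a, ha, k⟩ := (h2 ⟨f, h1 hf⟩).1 hf
  obtain ⟨c, hc1, rfl⟩ := conj_zB_of_card (h1 hf) (h4 f hf hne).1 (by rw [(h4 f hf hne).2]; norm_num)
  obtain ⟨b, -, k1⟩ := s.lift_cj ⟨c, hc1⟩⁻¹ ha k (y' := ⟨zB, zB_mem⟩) (by simp [mul_assoc])
  have k2 : Nat.card ↥(cj (ψ ⟨c, hc1⟩⁻¹) A ⊓ VG z g l) ≤ 64 := by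
    rw [← chk9]
    refine card_le_countLt (f := vv z g l) fun u hu => ?_
    obtain ⟨x, hx, rfl⟩ := s.o.x.mem_VG.1 hu.2
    exact ⟨x, hx, rfl, (nbeq_iff _ _).2 (s.fix_of_mem (hA.cj _) hx hu.1 k1 :)⟩
  rw [s.card_cj_inf] at k2
  have k3 := Nat.mul_le_mul k2 h6
  rw [← h3, hA.card] at k3
  omega

theorem exists_P2 {a : ℕ} (h : vv z g l a * ψ ⟨zA, zA_mem⟩ ∈ A) (ha : a < 2048) :
    ∃ k : M24, (∃ a < 2048, vv z g l a * ψ ⟨zA, zA_mem⟩ ∈ cj (ψ k) A) ∧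
      ∀ a < 2048, ∀ y : M24, vv z g l a * ψ y ∈ cj (ψ k) A → (y : PG) ∈ clo gP2 := by
  obtain ⟨F, h1, h2, h3⟩ := s.exists_img hN
  obtain ⟨n, -, hn⟩ := (Nat.dvd_prime_pow Nat.prime_two).1 (hA.card ▸ Dvd.intro_left _ h3.symm : _ ∣ 2 ^ 10)
  have h4 : F ≤ CZ zA := fun f hf => by
    obtain ⟨b, hb, k⟩ := (h2 ⟨f, h1 hf⟩).1 hf
    exact mem_CZ.2 ⟨h1 hf, congrArg Subtype.val (s.lift_comm hA hb ha k h).2⟩
  obtain ⟨c, hc, k⟩ := exists_conj_le_of_card P2_le_CZ card_P2 (card_CZ_zA ▸ factorization_eq_of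
    Nat.prime_two (by norm_num) (by norm_num)) h4 (IsPGroup.of_card hn)
  refine ⟨⟨c, CZ_le zA hc⟩, s.lift_cj ⟨c, CZ_le zA hc⟩ ha h (conj_eq_of_mem_CZ hc), fun b hb y hy => ?_⟩
  have k1 := s.lift_cj ⟨c, CZ_le zA hc⟩⁻¹ hb hy (y' := ⟨c, CZ_le zA hc⟩⁻¹ * y * ⟨c, CZ_le zA hc⟩) (by simp)
  rw [map_inv, cj_inv_cj] at k1
  simpa [mul_assoc] using k _ ((h2 _).2 k1)

theorem Fix_le {a : ℕ} (h : vv z g l a * ψ ⟨zA, zA_mem⟩ ∈ A)
    (hP : ∀ a < 2048, ∀ y : M24, vv z g l a * ψ y ∈ A → (y : PG) ∈ clo gP2) {y : M24}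
    (hy : (y : PG) ∈ Golay.Fix O0) : ∃ x < 2048, vv z g l x * ψ y ∈ A := by
  obtain ⟨F, h1, h2, h3⟩ := s.exists_img hN
  refine (h2 y).1 (by_contra fun hne => ?_)
  have hX := lemX (F := F) (c := Nat.card ↥(A ⊓ VG z g l ⊓ AG z g l ψ)) (fun f hf => ?_) (fun f hf => ?_)
    fun D hD => ?_
  rotate_left
  · obtain ⟨b, hb, k⟩ := (h2 ⟨f, h1 hf⟩).1 hf
    exact hP b hb _ k
  · obtain ⟨b, hb, k⟩ := (h2 ⟨f, h1 hf⟩).1 hf
    exact congrArg Subtype.val (s.lift_sq hA hb k).2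
  · rw [pc64, Spor.force_eq]
    refine card_le_countLt (f := fun j => vv z g l (s6 j)) fun u hu => ?_
    obtain ⟨x, hx, rfl⟩ := s.o.x.mem_VG.1 hu.1.2
    obtain ⟨j, hj, rfl⟩ := in6_ok x hx ((s.vv_mem_AG_iff hx).1 hu.2)
    refine ⟨j, hj, rfl, hD j hj fun f hf => ?_⟩
    obtain ⟨b, -, k⟩ := (h2 ⟨f, h1 hf⟩).1 hf
    exact (s.fix_of_mem hA hx hu.1.1 k :)
  have hZ : ∀ x < 2048, vv z g l x ∈ A → in6 x = true ∨ in6 (x ^^^ uk 2) = true := fun x hx k =>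
    fix_gE (by norm_num) hx (by rw [← code_zA']; exact (s.fix_of_mem hA hx k h :))
  have hY : Nat.card ↥(F ⊓ Golay.Fix O0) * Nat.card ↥(A ⊓ VG z g l) ≤ 8 * Nat.card ↥(A ⊓ VG z g l ⊓ AG z g l ψ) := by
    by_cases he : F ⊓ Golay.Fix O0 ≤ zpowers zA
    · have k1 := card_le_of_le he
      rw [Nat.card_zpowers, orderOf_zA] at k1
      have k2 : (AG z g l ψ).relIndex (A ⊓ VG z g l) ∣ 2 := by
        rw [relIndex_dvd_two_iff]
        by_cases k : A ⊓ VG z g l ≤ AG z g l ψ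
        · exact ⟨1, one_mem _, fun b hb => .inr (k hb)⟩
        obtain ⟨u, hu, k⟩ := SetLike.not_le_iff_exists.1 k
        refine ⟨u, hu, fun b hb => ?_⟩
        obtain ⟨x, hx, rfl⟩ := s.o.x.mem_VG.1 hu.2
        obtain ⟨x', hx', rfl⟩ := s.o.x.mem_VG.1 hb.2
        have k0 := (chk8 2 (by norm_num)).2.1
        refine (hZ x' hx' hb.1).symm.imp (fun k3 => ?_) (s.vv_mem_AG hx')
        have k4 := mul_mem (s.vv_mem_AG (xor_lt hx' k0) k3)
          (s.vv_mem_AG (xor_lt hx k0) ((hZ x hx hu.1).resolve_left fun e => k (s.vv_mem_AG hx e)))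
        rwa [s.o.x.vv_xor, s.o.x.vv_xor, s.vv_comm x, mul_assoc, ← mul_assoc (vv z g l (uk 2)), s.vv_sq,
          one_mul] at k4
      have k3 := card_mul_relIndex (inf_le_left : A ⊓ VG z g l ⊓ AG z g l ψ ≤ _)
      rw [inf_relIndex_left] at k3
      have k4 := Nat.le_of_dvd (by norm_num) k2
      rw [← k3]
      calc _ ≤ 2 * (_ * 2) := Nat.mul_le_mul k1 (Nat.mul_le_mul_left _ k4)
        _ ≤ _ := by omega
    obtain ⟨e, he, k⟩ := SetLike.not_le_iff_exists.1 he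
    have k1 : A ⊓ VG z g l ≤ AG z g l ψ := fun u hu => by
      obtain ⟨x, hx, rfl⟩ := s.o.x.mem_VG.1 hu.2
      refine s.vv_mem_AG hx ((hZ x hx hu.1).resolve_right fun k2 => ?_)
      obtain ⟨j, hj, k3⟩ := in6_ok _ (xor_lt hx (chk8 2 (by norm_num)).2.1) k2
      obtain ⟨i, hi, k4⟩ := s.exists_eE he.2
      obtain ⟨b, -, k5⟩ := (h2 ⟨e, h1 he.1⟩).1 he.1
      rcases chk5 i hi with k6 | k6 | k6
      · exact k (eq_one_iff_code.2 (k4.symm.trans k6) ▸ one_mem _)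
      · exact k (code_injective ((k4.symm.trans k6).trans code_zA'.symm) ▸ mem_zpowers zA)
      · refine k6 j hj ?_
        rw [k3, Nat.xor_xor_cancel_right, k4]
        exact (s.fix_of_mem hA hx hu.1 k5 :)
    rw [inf_eq_left.2 k1]
    refine Nat.mul_le_mul_right _ ?_
    have k2 := card_dvd_of_le (inf_le_right : F ⊓ Golay.Fix O0 ≤ _)
    have k3 := card_lt_of_lt (lt_of_le_of_ne (inf_le_right : F ⊓ Golay.Fix O0 ≤ _) fun e => hne (e.ge hy).1)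
    rw [Golay.card_Fix_octad O0_mem] at k2 k3
    obtain ⟨n, hn, e⟩ := (Nat.dvd_prime_pow Nat.prime_two (m := 4)).1 k2
    rw [e] at k3 ⊢
    interval_cases n <;> omega
  rw [hA.card] at h3
  have k := Nat.mul_le_mul_left (Nat.card F) hY
  rw [mul_left_comm, mul_comm (Nat.card F), ← h3, mul_left_comm] at k
  omega

theorem exists_le {a : ℕ} (h : vv z g l a * ψ ⟨zA, zA_mem⟩ ∈ A)
    (hP : ∀ a < 2048, ∀ y : M24, vv z g l a * ψ y ∈ A → (y : PG) ∈ clo gP2) : ∃ c, AG z g l ψ ≤ cj c A := by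
  obtain ⟨e, he⟩ : ∃ e : ℕ → M24, ∀ k < 4, code (e k : PG) = gE k :=
    ⟨fun k => if hk : k < 4 then ⟨toPerm (gE k), toPerm_mem (gE_ok k hk)⟩ else 1, fun k hk => by
      simp only [dif_pos hk]
      exact code_toPerm' (gE_ok k hk)⟩
  have h1 : ∀ k < 4, ∃ x < 2048, vv z g l x * ψ (e k) ∈ A := fun k hk => s.Fix_le hA hN h hP
    (mem_Fix_of_key (e k).2 (by rw [he k hk]; exact (by decide +kernel : ∀ k < 4, key (gE k) = key idc) k hk))
  have h2 : ∀ x < 2048, in6 x = true → vv z g l x ∈ A := fun x hx k => s.mem_of_fix hA hN hx fun b hb y hy => by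
    have k1 := (Spor.allL_iff _ _).1 chk6 _ (mem_P2L _ (hP b hb y hy))
    rw [(allLt_iff _ _).2 fun k hk => by
      obtain ⟨c, hc, k2⟩ := h1 k hk
      rw [← he k hk]
      exact comm_iff.2 (congrArg Subtype.val (s.lift_comm hA hb hc hy k2).2), bor_iff, nbeq_iff] at k1
    exact (s.comm_vv_iff 0 y hx).1 (s.AG_comm ((s.mem_AG_iff (by norm_num)).2
      ⟨by decide +kernel, mem_Fix_of_key y.2 (k1.resolve_right (by decide))⟩) (s.vv_mem_AG hx k))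
  have h3 : ∀ k < 4, vv z g l 0 * ψ (e k) ∈ A ∨ vv z g l (uk k) * ψ (e k) ∈ A := fun k hk => by
    obtain ⟨x, hx, k1⟩ := h1 k hk
    refine (fix_gE hk hx (he k hk ▸ (s.lift_sq hA hx k1).1)).imp (fun k2 => ?_) fun k2 => ?_
    · have k3 := mul_mem (h2 x hx k2) k1
      rwa [← mul_assoc, ← s.o.x.vv_xor, Nat.xor_self] at k3
    · have k3 := mul_mem (h2 _ (xor_lt hx (chk8 k hk).2.1) k2) k1
      rwa [← mul_assoc, ← s.o.x.vv_xor, Nat.xor_comm x, Nat.xor_xor_cancel_right] at k3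
  have h4 : ∀ c, (∀ k < 6, c⁻¹ * vv z g l (b6 k) * c ∈ A) → (∀ k < 4, c⁻¹ * ψ (e k) * c ∈ A) →
      AG z g l ψ ≤ cj c A := fun c k1 k2 => genLt_le fun i hi => Inv.Fz.mem_cj.2 (by
    by_cases k : i < 6
    · exact s.aG_lo k ▸ k1 i k
    · obtain ⟨m, rfl⟩ : ∃ k, i = k + 6 := ⟨i - 6, by omega⟩
      rw [s.aG_hi, ← he m (by omega), valN_coe]
      exact k2 m (by omega))
  have h5 : ∀ k < 6, vv z g l (b6 k) ∈ A := fun k hk =>
    h2 _ (b6_lt k) ((by decide +kernel : ∀ k < 6, in6 (b6 k) = true) k hk)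
  by_cases h6 : ∀ k < 4, vv z g l 0 * ψ (e k) ∈ A
  · refine ⟨1, h4 1 (fun k hk => by simpa using h5 k hk) fun k hk => ?_⟩
    simpa [s.o.x.vv_zero] using h6 k hk
  push Not at h6
  obtain ⟨m, hm, h6⟩ := h6
  refine ⟨vv z g l 24, h4 _ (fun k hk => ?_) fun k hk => ?_⟩
  · rw [mul_assoc, s.vv_comm, inv_mul_cancel_left]
    exact h5 k hk
  · rw [s.vv_inv, mul_assoc, s.psi_vv _ (by norm_num), ← mul_assoc, ← s.o.x.vv_xor, he k hk, ← (chk8 k hk).1]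
    refine (h3 k hk).resolve_left fun k1 => ?_
    have k2 := (s.lift_comm hA (by norm_num) (chk8 m hm).2.1 k1 ((h3 m hm).resolve_left h6)).1
    rw [he k hk, he m hm, (chk8 m hm).2.2.1, Nat.zero_xor, Nat.xor_zero] at k2
    refine (chk8 k hk).2.2.2 m hm ?_ k2
    rintro rfl
    exact h6 k1

end StM

namespace StJ

variable [Finite G] {z : G} {g l : ℕ → G} {π : centralizer ({z} : Set G) →* PG} {ψ : M24 →* G} (s : StJ z π g l ψ)

include s

theorem good_AG : Good (AG z g l ψ) := ⟨s.t.m.elem_AG, s.t.m.card_AG, s.cent_AG⟩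

theorem exists_cj_AG {A : Subgroup G} (hA : Good A) : ∃ c, A = cj c (AG z g l ψ) := by
  have hN : ∀ {B : Subgroup G} (k : M24), B ≤ normalizer (VG z g l : Set G) →
      cj (ψ k) B ≤ normalizer (VG z g l : Set G) := fun k h =>
    (cj_mono h).trans (cj_eq_of_mem (s.t.m.psi_mem k)).le
  obtain ⟨c, -, h1⟩ := s.x.syl_T.exists_cj_le hA.pg le_top
  have h2 := h1.trans (s.x.T_le_A.trans inf_le_right)
  obtain ⟨k, a, ha, h3⟩ := s.t.m.exists_zA (hA.cj c) h2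
  obtain ⟨k', ⟨b, -, h4⟩, h5⟩ := s.t.m.exists_P2 ((hA.cj c).cj _) (hN k h2) h3 ha
  obtain ⟨d, h6⟩ := s.t.m.exists_le (((hA.cj c).cj _).cj _) (hN k' (hN k h2)) h4 h5
  rw [cj_cj, cj_cj, cj_cj] at h6
  exact ⟨_, by rw [eq_of_le_of_card_ge h6 (by rw [card_cj, hA.card, s.t.m.card_AG]), cj_inv_cj]⟩

end StJ

end Cfsg.Agent.J4T
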